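import Cfsg.Agent.FGS4.ExtraTwo
import Mathlib.GroupTheory.Perm.Sign

/-! # Automorphisms of the extraspecial group of order 32 of minus type -/

set_option linter.style.haveILetI false

namespace Cfsg.Agent.FGS4.AutMinusFive

open Cfsg.Agent.S5396
open Cfsg.Agent.FGS4.ExtraTwo

/-- The type: a hyperbolic and an elliptic block. -/
abbrev s₀ : Fin 2 → Bool := sType true 2

/-- The model. -/
abbrev M : Type := Ext s₀

/-- Nonzero singular vectors. -/
abbrev X : Type := {v : Vec 2 // form s₀ v v = 0 ∧ v ≠ 0}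

/-- The polar form. -/
def polar (u v : Vec 2) : ZMod 2 := form s₀ u v + form s₀ v u

theorem card_X : Fintype.card X = 5 := by decide +kernel

theorem span_X : ∀ v : Vec 2, v = 0 ∨ (form s₀ v v = 0 ∧ v ≠ 0) ∨
    ∃ x : Vec 2, (form s₀ x x = 0 ∧ x ≠ 0) ∧ (form s₀ (v + x) (v + x) = 0 ∧ v + x ≠ 0) := by
  decide +kernel

theorem swap_data : ∀ i j : X, i ≠ j → form s₀ (i.1 + j.1) (i.1 + j.1) = 1 ∧
    ∀ k : X, k.1 + (if polar k.1 (i.1 + j.1) = 1 then i.1 + j.1 else 0) =
      (Equiv.swap i j k).1 := by decide +kernel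

/-- The reflection in a nonsingular vector, lifted to the group. -/
def refl (r : Vec 2) (g : M) : M :=
  ⟨g.v + (if polar g.v r = 1 then r else 0), g.a + polar g.v r * form s₀ g.v r⟩

theorem refl_table : ∀ r u w : Vec 2, form s₀ r r = 1 →
    (u + w) + (if polar (u + w) r = 1 then r else 0) =
      (u + if polar u r = 1 then r else 0) + (w + if polar w r = 1 then r else 0) ∧
    form s₀ u w + polar (u + w) r * form s₀ (u + w) r =
      polar u r * form s₀ u r + polar w r * form s₀ w r +
        form s₀ (u + if polar u r = 1 then r else 0) (w + if polar w r = 1 then r else 0) := by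
  decide +kernel

theorem refl_invol_table : ∀ r u : Vec 2, form s₀ r r = 1 →
    (u + if polar u r = 1 then r else 0) +
        (if polar (u + if polar u r = 1 then r else 0) r = 1 then r else 0) = u ∧
    polar (u + if polar u r = 1 then r else 0) r = polar u r ∧
    polar u r * form s₀ u r + polar u r + polar u r *
        form s₀ (u + if polar u r = 1 then r else 0) r = 0 := by
  decide +kernel

/-- The reflection as an automorphism. -/
def reflAut (r : Vec 2) (hr : form s₀ r r = 1) : MulAut M where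
  toFun := refl r
  invFun g := ⟨(refl r g).v, (refl r g).a + polar g.v r⟩
  left_inv g := by
    obtain ⟨h1, h2, h3⟩ := refl_invol_table r g.v hr
    ext : 1
    · exact h1
    · simp only [refl]
      rw [h2]
      linear_combination h3
  right_inv g := by
    obtain ⟨h1, h2, h3⟩ := refl_invol_table r g.v hr
    ext : 1
    · exact h1
    · simp only [refl]
      rw [h2]
      linear_combination h3
  map_mul' g h := by
    ext : 1
    · simp only [refl, mul_v]
      exact (refl_table r g.v h.v hr).1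
    · simp only [refl, mul_a, mul_v]
      linear_combination (refl_table r g.v h.v hr).2

theorem aut_v (α : MulAut M) {g h : M} (e : g.v = h.v) : (α g).v = (α h).v := by
  have hz : g⁻¹ * h ∈ Subgroup.center M := mem_center_iff'.2 (by
    rw [mul_v, inv_v, e]
    funext i
    show h.v i + h.v i = 0
    generalize h.v i = u
    revert u; decide)
  have hc : α (g⁻¹ * h) ∈ Subgroup.center M :=
    (Subgroup.characteristic_iff_comap_eq.1 inferInstance α).ge hz
  rw [mem_center_iff'] at hc
  have : α h = α g * α (g⁻¹ * h) := by rw [← map_mul, mul_inv_cancel_left]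
  rw [this, mul_v, hc, add_zero]

theorem aut_mem_X (α : MulAut M) (x : X) :
    form s₀ (α ⟨x.1, 0⟩).v (α ⟨x.1, 0⟩).v = 0 ∧ (α ⟨x.1, 0⟩).v ≠ 0 := by
  refine ⟨?_, fun h => x.2.2 ?_⟩
  · have h1 : (α (⟨x.1, 0⟩ : M)) ^ 2 = 1 := by
      rw [← map_pow, sq_eq]
      simp only [x.2.1]
      exact map_one α
    rw [sq_eq] at h1
    exact congrArg Ext.a h1
  · have h1 : α (⟨x.1, 0⟩ : M) ∈ Subgroup.center M := mem_center_iff'.2 h
    have h2 : (⟨x.1, 0⟩ : M) ∈ (Subgroup.center M).comap α.toMonoidHom := h1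
    rw [Subgroup.characteristic_iff_comap_eq.1 inferInstance α] at h2
    exact mem_center_iff'.1 h2

/-- The action on the five singular vectors. -/
noncomputable def toPerm : MulAut M →* Equiv.Perm X :=
  MonoidHom.mk' (fun α =>
    { toFun := fun x => ⟨(α ⟨x.1, 0⟩).v, aut_mem_X α x⟩
      invFun := fun x => ⟨(α⁻¹ ⟨x.1, 0⟩).v, aut_mem_X α⁻¹ x⟩
      left_inv := fun x => Subtype.ext (by
        show (α⁻¹ ⟨(α ⟨x.1, 0⟩).v, 0⟩).v = x.1
        rw [aut_v α⁻¹ (g := ⟨(α ⟨x.1, 0⟩).v, 0⟩) (h := α ⟨x.1, 0⟩) rfl, MulAut.inv_apply,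
          MulEquiv.symm_apply_apply])
      right_inv := fun x => Subtype.ext (by
        show (α ⟨(α⁻¹ ⟨x.1, 0⟩).v, 0⟩).v = x.1
        rw [aut_v α (g := ⟨(α⁻¹ ⟨x.1, 0⟩).v, 0⟩) (h := α⁻¹ ⟨x.1, 0⟩) rfl, MulAut.inv_apply,
          MulEquiv.apply_symm_apply]) })
    fun α β => Equiv.ext fun x => Subtype.ext (by
      show ((α * β) ⟨x.1, 0⟩).v = (α ⟨(β ⟨x.1, 0⟩).v, 0⟩).v
      exact aut_v α rfl)

theorem toPerm_surjective : Function.Surjective toPerm := by
  intro σ
  induction σ using Equiv.Perm.swap_induction_on with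
  | one => exact ⟨1, map_one _⟩
  | swap_mul σ x y hxy ih =>
    obtain ⟨α, rfl⟩ := ih
    obtain ⟨hr, hk⟩ := swap_data x y hxy
    refine ⟨reflAut _ hr * α, ?_⟩
    rw [map_mul]
    congr 1
    exact Equiv.ext fun k => Subtype.ext (hk k)

theorem v_fixed_of_ker {α : MulAut M} (h : toPerm α = 1) (g : M) : (α g).v = g.v := by
  have hX : ∀ x : X, (α ⟨x.1, 0⟩).v = x.1 := fun x =>
    congrArg Subtype.val (Equiv.congr_fun h x)
  rcases span_X g.v with e | e | ⟨x, hx, hy⟩
  · rw [aut_v α (g := g) (h := 1) e, map_one, e]; rfl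
  · rw [aut_v α (g := g) (h := ⟨g.v, 0⟩) rfl]
    exact hX ⟨g.v, e⟩
  · have e : g.v = (g.v + x) + x := by
      funext i
      show g.v i = g.v i + x i + x i
      generalize g.v i = u, x i = w
      revert u w; decide
    rw [aut_v α (g := g) (h := ⟨g.v + x, 0⟩ * ⟨x, 0⟩) e, map_mul, mul_v, hX ⟨_, hy⟩, hX ⟨_, hx⟩, ← e]

theorem card_ker_le : Nat.card toPerm.ker ≤ 16 := by
  have hV : Nat.card (Vec 2) = 16 := by simp
  rw [← hV]
  let gx : Fin 2 → M := fun i => ⟨Pi.single i (1, 0), 0⟩
  let gy : Fin 2 → M := fun i => ⟨Pi.single i (0, 1), 0⟩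
  refine Nat.card_le_card_of_injective
    (fun α : toPerm.ker => fun i => ((α.1 (gx i)).a, (α.1 (gy i)).a)) ?_
  intro α β hab
  apply Subtype.ext
  have heq : ∀ g : M, (α.1 g).a = (β.1 g).a → α.1 g = β.1 g := fun g e => by
    ext : 1
    · rw [v_fixed_of_ker α.2, v_fixed_of_ker β.2]
    · exact e
  have hsub : ∀ g : M, g ∈ α.1.toMonoidHom.eqLocus β.1.toMonoidHom := by
    intro g
    have hz : ∀ a : ZMod 2, (⟨0, a⟩ : M) ∈ α.1.toMonoidHom.eqLocus β.1.toMonoidHom := by
      intro a
      rcases (by revert a; decide : a = 0 ∨ a = 1) with rfl | rfl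
      · exact one_mem _
      · refine heq _ ?_
        have h1 : ∀ γ : MulAut M, (γ (⟨0, 1⟩ : M)).v = 0 → (γ (⟨0, 1⟩ : M)).a = 1 := by
          intro γ hv
          by_contra ha
          have h0 : γ (⟨0, 1⟩ : M) = 1 := by
            ext : 1
            · exact hv
            · revert ha
              generalize (γ (⟨0, 1⟩ : M)).a = c
              show ¬ c = 1 → c = 0
              revert c; decide
          rw [MulEquiv.map_eq_one_iff] at h0
          exact absurd (congrArg Ext.a h0) (by decide)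
        rw [h1 _ (v_fixed_of_ker α.2 _), h1 _ (v_fixed_of_ker β.2 _)]
    have hx : ∀ i, gx i ∈ α.1.toMonoidHom.eqLocus β.1.toMonoidHom := fun i =>
      heq _ (congrArg Prod.fst (congrFun hab i))
    have hy : ∀ i, gy i ∈ α.1.toMonoidHom.eqLocus β.1.toMonoidHom := fun i =>
      heq _ (congrArg Prod.snd (congrFun hab i))
    obtain ⟨h, hh, hv⟩ : ∃ h ∈ α.1.toMonoidHom.eqLocus β.1.toMonoidHom, h.v = g.v := by
      have hu : ∀ i : Fin 2, ∀ u : ZMod 2 × ZMod 2,
          ∃ h ∈ α.1.toMonoidHom.eqLocus β.1.toMonoidHom, h.v = Pi.single i u := by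
        intro i u
        have : u = (0, 0) ∨ u = (1, 0) ∨ u = (0, 1) ∨ u = (1, 0) + (0, 1) := by
          revert u; decide
        rcases this with rfl | rfl | rfl | rfl
        · exact ⟨1, one_mem _, (Pi.single_zero i).symm⟩
        · exact ⟨_, hx i, rfl⟩
        · exact ⟨_, hy i, rfl⟩
        · exact ⟨_, mul_mem (hx i) (hy i), by rw [mul_v, Pi.single_add]⟩
      obtain ⟨h0, hh0, e0⟩ := hu 0 (g.v 0)
      obtain ⟨h1, hh1, e1⟩ := hu 1 (g.v 1)
      refine ⟨h0 * h1, mul_mem hh0 hh1, ?_⟩
      rw [mul_v, e0, e1]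
      funext i
      fin_cases i <;> simp
    have : g = h * ⟨0, g.a - h.a⟩ := by
      ext : 1
      · simp [hv]
      · simp [form_zero_right]
    rw [this]
    exact mul_mem hh (hz _)
  exact MulEquiv.ext fun g => hsub g

theorem conj_mem_ker {P : Type*} [Group P] (e : P ≃* M) (x : P) :
    toPerm (MulAut.congr e (MulAut.conj x)) = 1 := by
  refine Equiv.ext fun k => Subtype.ext ?_
  show (e (x * e.symm ⟨k.1, 0⟩ * x⁻¹)).v = k.1
  rw [map_mul, map_mul, MulEquiv.apply_symm_apply, map_inv, mul_v, mul_v, inv_v]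
  show (e x).v + k.1 + (e x).v = k.1
  funext i
  show (e x).v i + k.1 i + (e x).v i = k.1 i
  generalize (e x).v i = u, k.1 i = w
  revert u w; decide

/-- The automorphism group. -/
theorem main {P : Type*} [Group P] [Finite P] (hex : Cfsg.IsExtraspecial 2 P)
    (h32 : Nat.card P = 32)
    (hminus : ∀ A : Subgroup P, Cfsg.IsElementaryAbelian 2 A → Nat.card A ≤ 4)
    [(MulAut.conj : P →* MulAut P).range.Normal] :
    Nat.card (MulAut.conj : P →* MulAut P).range = 16 ∧ Nat.card (MulAut P) = 1920 ∧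
      Nonempty ((MulAut P ⧸ (MulAut.conj : P →* MulAut P).range) ≃* Equiv.Perm (Fin 5)) := by
  obtain ⟨b, n, -, hcard, ⟨e⟩⟩ := exists_model P hex
  obtain rfl : n = 2 := by
    rw [h32] at hcard
    have := Nat.pow_right_injective le_rfl (show 2 ^ 5 = 2 ^ (2 * n + 1) by simpa using hcard)
    omega
  cases b
  · exfalso
    let A := (coordSub (sType false 2)).map e.symm.toMonoidHom
    have hA : Cfsg.IsElementaryAbelian 2 A := by
      obtain ⟨⟨hc⟩, he⟩ := coordSub_elem (s := sType false 2)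
      refine ⟨⟨⟨?_⟩⟩, ?_⟩
      · rintro ⟨_, a, ha, rfl⟩ ⟨_, c, hc', rfl⟩
        apply Subtype.ext
        show e.symm a * e.symm c = e.symm c * e.symm a
        rw [← map_mul, ← map_mul]
        exact congrArg e.symm (congrArg Subtype.val (hc.comm ⟨a, ha⟩ ⟨c, hc'⟩))
      · rintro _ ⟨a, ha, rfl⟩
        rw [← map_pow, he a ha, map_one]
    have := hminus A hA
    rw [Subgroup.card_map_of_injective e.symm.injective, coordSub_card] at this
    revert this
    decide
  have hI : Nat.card (MulAut.conj : P →* MulAut P).range = 16 := by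
    have h1 := (MulAut.conj : P →* MulAut P).ker.card_mul_index
    rw [Subgroup.index_ker, h32] at h1
    have h2 : Nat.card (MulAut.conj : P →* MulAut P).ker = 2 := by
      have : (MulAut.conj : P →* MulAut P).ker = Subgroup.center P := by
        ext g
        rw [MonoidHom.mem_ker, Subgroup.mem_center_iff, MulEquiv.ext_iff]
        simp only [MulAut.conj_apply, MulAut.one_apply, mul_inv_eq_iff_eq_mul]
        exact forall_congr' fun _ => eq_comm
      rw [this, hex.2]
    rw [h2] at h1
    omega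
  set Ψ : MulAut P →* Equiv.Perm X := toPerm.comp (MulAut.congr e).toMonoidHom
  have hΨ : Function.Surjective Ψ := toPerm_surjective.comp (MulAut.congr e).surjective
  have hle : (MulAut.conj : P →* MulAut P).range ≤ Ψ.ker := by
    rintro _ ⟨x, rfl⟩
    exact conj_mem_ker e x
  have hkcard : Nat.card Ψ.ker ≤ 16 := by
    refine le_trans ?_ card_ker_le
    exact Nat.card_le_card_of_injective
      (fun a : Ψ.ker => (⟨MulAut.congr e a.1, a.2⟩ : toPerm.ker))
      (fun a b h => Subtype.ext ((MulAut.congr e).injective (congrArg Subtype.val h)))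
  have hker : (MulAut.conj : P →* MulAut P).range = Ψ.ker :=
    Subgroup.eq_of_le_of_card_ge hle (hkcard.trans hI.ge)
  have e5 : Equiv.Perm X ≃* Equiv.Perm (Fin 5) :=
    Equiv.permCongrHom (Fintype.equivFinOfCardEq card_X)
  let eq1 : (MulAut P ⧸ (MulAut.conj : P →* MulAut P).range) ≃* Equiv.Perm (Fin 5) :=
    ((QuotientGroup.quotientMulEquivOfEq hker).trans
      (QuotientGroup.quotientKerEquivOfSurjective Ψ hΨ)).trans e5
  refine ⟨hI, ?_, ⟨eq1⟩⟩
  rw [Subgroup.card_eq_card_quotient_mul_card_subgroup (MulAut.conj : P →* MulAut P).range, hI,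
    Nat.card_congr eq1.toEquiv, Nat.card_perm, Nat.card_eq_fintype_card, Fintype.card_fin]
  rfl

end Cfsg.Agent.FGS4.AutMinusFive
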