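import Cfsg.Prelude.Def_Transfer
import Cfsg.Agent.OddLocal.RankTwo.MetacyclicAction
import Cfsg.Agent.FGS4.MetacyclicComplement

/-! # Elementary abelian groups of order 8 acting on an odd `p`-group with few broad elements -/

set_option linter.style.haveILetI false

namespace Cfsg.Agent.FGS4.BroadKlein

open Subgroup
open scoped commutatorElement

variable {P : Type*} [Group P] [Finite P] {p : ℕ} [hp : Fact p.Prime]

/-- The fixed points of `T` are not cyclic. -/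
def Br (T : MulAut P) : Prop := ¬ ∃ g : P, ∀ x : P, (T x = x ↔ x ∈ Subgroup.zpowers g)

/-- The induced automorphism of the Frattini quotient. -/
noncomputable def bar (T : MulAut P) : MulAut (P ⧸ frattini P) :=
  QuotientGroup.congr (frattini P) (frattini P) T
    (Subgroup.characteristic_iff_map_eq.mp frattini_characteristic T)

omit [Finite P] in
theorem bar_mk (T : MulAut P) (x : P) : bar T (x : P ⧸ frattini P) = ((T x : P) : P ⧸ frattini P) :=
  rfl

omit [Finite P] in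
theorem bar_mul (S T : MulAut P) (v : P ⧸ frattini P) : bar (S * T) v = bar S (bar T v) :=
  QuotientGroup.induction_on v fun _ => rfl

omit [Finite P] in
theorem bar_one (v : P ⧸ frattini P) : bar 1 v = v :=
  QuotientGroup.induction_on v fun _ => rfl

theorem quot_comm (hP : IsPGroup p P) (u v : P ⧸ frattini P) : u * v = v * u := by
  haveI : Group.IsNilpotent P := hP.isNilpotent
  induction u using QuotientGroup.induction_on with | _ x => ?_
  induction v using QuotientGroup.induction_on with | _ y => ?_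
  rw [← QuotientGroup.mk_mul, ← QuotientGroup.mk_mul, QuotientGroup.eq]
  have h := Subgroup.commutator_mem_commutator (H₁ := (⊤ : Subgroup P)) (H₂ := ⊤)
    (mem_top y⁻¹) (mem_top x⁻¹)
  rw [← commutator_def] at h
  refine Core.commutator_le_frattini_of_isNilpotent ?_
  convert h using 1
  rw [commutatorElement_def]
  group

theorem quot_pow (hP : IsPGroup p P) (v : P ⧸ frattini P) : v ^ p = 1 := by
  induction v using QuotientGroup.induction_on with | _ x => ?_
  rw [← QuotientGroup.mk_pow]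
  exact (QuotientGroup.eq_one_iff _).2 (FGS4.MetacyclicComplement.pow_mem_frattini hP x)

theorem zpow_eq_one_of {v : P ⧸ frattini P} (hP : IsPGroup p P) (hv : v ≠ 1) {i : ℤ} (h : v ^ i = 1) :
    (p : ℤ) ∣ i := by
  have ho : orderOf v = p := orderOf_eq_prime (quot_pow hP v) hv
  rw [← ho]
  exact orderOf_dvd_iff_zpow_eq_one.2 h

theorem sq_ne_one (hP : IsPGroup p P) (hp2 : p ≠ 2) {v : P ⧸ frattini P} (hv : v ≠ 1) : v ≠ v⁻¹ := by
  intro e
  have h1 : v ^ (2 : ℤ) = 1 := by rw [zpow_two]; nth_rewrite 1 [e]; exact inv_mul_cancel v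
  have h2 : p ∣ 2 := by exact_mod_cast zpow_eq_one_of hP hv h1
  exact hp2 ((Nat.prime_dvd_prime_iff_eq hp.out Nat.prime_two).1 h2)

theorem mem_zpowers_symm (hP : IsPGroup p P) {v g : P ⧸ frattini P} (hv : v ≠ 1)
    (h : v ∈ zpowers g) : g ∈ zpowers v := by
  have hle : zpowers v ≤ zpowers g := zpowers_le.2 h
  have hg : g ≠ 1 := fun e => hv (by rw [e] at h; simpa using h)
  have h2 : zpowers v = zpowers g := Subgroup.eq_of_le_of_card_ge hle (by
    rw [Nat.card_zpowers, Nat.card_zpowers, orderOf_eq_prime (quot_pow hP v) hv,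
      orderOf_eq_prime (quot_pow hP g) hg])
  rw [h2]; exact mem_zpowers g

section

variable (hP : IsPGroup p P) (hp2 : p ≠ 2) (I : Subgroup (MulAut P))
  (hsq : ∀ T ∈ I, T * T = 1) (hcI : ∀ S ∈ I, ∀ T ∈ I, S * T = T * S)

include hP hp2 hsq in
omit [Finite P] in
theorem zpowers_coprime {T : MulAut P} (hT : T ∈ I) : (Nat.card (zpowers T)).Coprime p := by
  rw [Nat.card_zpowers]
  exact Nat.Coprime.coprime_dvd_left (orderOf_dvd_of_pow_eq_one (show T ^ 2 = 1 by rw [pow_two]; exact hsq T hT))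
    ((Nat.coprime_primes Nat.prime_two hp.out).2 hp2.symm)

include hP hp2 hsq in
theorem lift {T : MulAut P} (hT : T ∈ I) (L : Subgroup P) (hL : ∀ a : MulAut P, ∀ l ∈ L, a l ∈ L)
    {x : P} (hx : x * (T x)⁻¹ ∈ L) : ∃ l ∈ L, ∃ y : P, x = l * y ∧ T y = y := by
  obtain ⟨l, hl, y, h1, h2⟩ := OddLocal.RankTwo.exists_fixed_lift hP (zpowers T)
    (zpowers_coprime hP hp2 I hsq hT) L (fun a _ => hL a) (x := x) (by
      intro a ha
      obtain ⟨m, rfl⟩ := mem_powers_iff_mem_zpowers.2 ha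
      show x * ((T ^ m) x)⁻¹ ∈ L
      induction m with
      | zero => simp
      | succ m ih =>
        have e : x * ((T ^ (m + 1)) x)⁻¹ = (x * ((T ^ m) x)⁻¹) * (T ^ m) (x * (T x)⁻¹) := by
          rw [pow_succ, MulAut.mul_apply, map_mul, map_inv]; group
        rw [e]
        exact L.mul_mem (ih (mem_powers_iff_mem_zpowers.1 ⟨m, rfl⟩)) (hL _ _ hx))
  exact ⟨l, hl, y, h1, h2 T (mem_zpowers T)⟩

include hP hp2 hsq in
theorem lift_quot {T : MulAut P} (hT : T ∈ I) {v : P ⧸ frattini P} (hv : bar T v = v) :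
    ∃ y : P, (y : P ⧸ frattini P) = v ∧ T y = y := by
  obtain ⟨x, rfl⟩ := QuotientGroup.mk_surjective v
  rw [bar_mk, eq_comm, QuotientGroup.eq] at hv
  have hx : x * (T x)⁻¹ ∈ frattini P := by
    have h1 := (inferInstance : (frattini P).Normal).conj_mem _ ((frattini P).inv_mem hv) (T x)
    simpa [mul_assoc] using h1
  obtain ⟨l, hl, y, h1, h2⟩ := lift hP hp2 I hsq hT (frattini P)
    (fun a l hl => OddLocal.RankTwo.aut_frattini_mem a hl) hx
  refine ⟨y, ?_, h2⟩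
  rw [h1, QuotientGroup.mk_mul, (QuotientGroup.eq_one_iff l).2 hl, one_mul]

include hP hp2 hsq in
theorem eq_one_of_bar {T : MulAut P} (hT : T ∈ I) (h : ∀ v, bar T v = v) : T = 1 := by
  set F := T.toMonoidHom.eqLocus (MonoidHom.id P)
  have htop : F = ⊤ := frattini_nongenerating (eq_top_iff.2 fun x _ => by
    obtain ⟨y, hy, hy2⟩ := lift_quot hP hp2 I hsq hT (h x)
    rw [QuotientGroup.eq] at hy
    rw [show x = y * (y⁻¹ * x) by group]
    exact mul_mem (mem_sup_left hy2) (mem_sup_right hy))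
  exact MulEquiv.ext fun x => (htop.symm ▸ mem_top x : x ∈ F)

/-- `v` is a common eigenvector. -/
def Eig (v : P ⧸ frattini P) : Prop := ∀ T ∈ I, bar T v = v ∨ bar T v = v⁻¹

include hP hp2 hsq hcI in
theorem eig_generate : Subgroup.closure {v | Eig I v} = ⊤ := by
  classical
  haveI : Finite (MulAut P) := Finite.of_injective (fun e : MulAut P => (e : P → P)) DFunLike.coe_injective
  haveI := Fintype.ofFinite I
  suffices h : ∀ s : Finset I,
      Subgroup.closure {v : P ⧸ frattini P | ∀ T ∈ s, bar (T : MulAut P) v = v ∨ bar (T : MulAut P) v = v⁻¹} = ⊤ by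
    refine eq_top_iff.2 ((h Finset.univ).ge.trans (Subgroup.closure_mono fun v hv => ?_))
    exact fun T hT => hv ⟨T, hT⟩ (Finset.mem_univ _)
  intro s
  induction s using Finset.induction_on with
  | empty => simp
  | insert T s _ ih =>
    rw [eq_top_iff, ← ih, Subgroup.closure_le]
    intro v hv
    set w := bar (T : MulAut P) v
    obtain ⟨h, hh⟩ : ∃ h : ℕ, 2 * h = p + 1 := by
      rcases hp.out.eq_two_or_odd' with e | ⟨k, hk⟩
      · exact absurd e hp2
      · exact ⟨k + 1, by omega⟩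
    have hw : bar (T : MulAut P) w = v := by
      show bar (T : MulAut P) (bar (T : MulAut P) v) = v
      rw [← bar_mul, hsq _ T.2, bar_one]
    have hc : Commute v w := quot_comm hP v w
    have hc' : Commute v w⁻¹ := quot_comm hP v w⁻¹
    have ha : ∀ U ∈ s, (bar (U : MulAut P) v = v ∧ bar (U : MulAut P) w = w) ∨
        (bar (U : MulAut P) v = v⁻¹ ∧ bar (U : MulAut P) w = w⁻¹) := by
      intro U hU
      have e : bar (U : MulAut P) w = bar (T : MulAut P) (bar (U : MulAut P) v) := by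
        show bar (U : MulAut P) (bar (T : MulAut P) v) = _
        rw [← bar_mul, ← bar_mul, hcI _ U.2 _ T.2]
      rcases hv U hU with e' | e'
      · exact Or.inl ⟨e', by rw [e, e']⟩
      · exact Or.inr ⟨e', by rw [e, e', map_inv]⟩
    have hdec : v = (v * w) ^ h * (v * w⁻¹) ^ h := by
      rw [hc.mul_pow, hc'.mul_pow, mul_assoc, ← mul_assoc (w ^ h), quot_comm hP (w ^ h), mul_assoc (v ^ h) (w ^ h),
        inv_pow, mul_inv_cancel, mul_one, ← pow_add, ← two_mul, hh, pow_succ, quot_pow hP, one_mul]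
    rw [SetLike.mem_coe, hdec]
    refine mul_mem (pow_mem (subset_closure ?_) h) (pow_mem (subset_closure ?_) h)
    · intro U hU
      rcases Finset.mem_insert.1 hU with rfl | hU
      · left; rw [map_mul, hw]; exact quot_comm hP w v
      · rcases ha U hU with ⟨e, e'⟩ | ⟨e, e'⟩
        · left; rw [map_mul, e, e']
        · right; rw [map_mul, e, e', mul_inv_rev]; exact quot_comm hP _ _
    · intro U hU
      rcases Finset.mem_insert.1 hU with rfl | hU
      · right; rw [map_mul, map_inv, hw, mul_inv_rev, inv_inv]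
      · rcases ha U hU with ⟨e, e'⟩ | ⟨e, e'⟩
        · left; rw [map_mul, map_inv, e, e']
        · right; rw [map_mul, map_inv, e, e', mul_inv_rev]; exact quot_comm hP _ _

end

/-! ### The main theorem -/

theorem card_le_four (I : Subgroup (MulAut P)) (a b c d : MulAut P)
    (h : ∀ T ∈ I, T = a ∨ T = b ∨ T = c ∨ T = d) : Nat.card I ≤ 4 := by
  classical
  have hsub : (I : Set (MulAut P)) ⊆ ({a, b, c, d} : Finset (MulAut P)) := fun T hT => by
    simpa using h T hT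
  rw [← SetLike.coe_sort_coe, Nat.card_coe_set_eq]
  refine (Set.ncard_le_ncard hsub (Finset.finite_toSet _)).trans ?_
  rw [Set.ncard_coe_finset]
  exact Finset.card_le_four

theorem main (hP : IsPGroup p P) (hp2 : p ≠ 2) (I : Subgroup (MulAut P))
    (hI : IsElementaryAbelian 2 I) (hI8 : Nat.card I = 8) (I₀ : Subgroup (MulAut P)) (hI₀ : I₀ < I)
    (hdisj : ∀ T ∈ I₀, T ≠ 1 → ¬ Br T)
    (hprod : ∀ T ∈ I, ∀ T' ∈ I, T ≠ 1 → T' ≠ 1 → Br T → Br T' → T * T' ∈ I₀) :
    IsMulCommutative P ∧ (∃ a b c : P, Subgroup.closure {a, b, c} = ⊤) ∧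
      (¬ ∃ a b : P, Subgroup.closure {a, b} = ⊤) ∧
      ∃ e₁ e₂ e₃ : MulAut P, e₁ ≠ e₂ ∧ e₁ ≠ e₃ ∧ e₂ ≠ e₃ ∧
        (∀ T, (T ∈ I ∧ T ≠ 1 ∧ Br T) ↔ (T = e₁ ∨ T = e₂ ∨ T = e₃)) ∧
        Subgroup.closure {e₁, e₂, e₃} = I ∧
        (∀ T, T ∈ I₀ ↔ (T = 1 ∨ T = e₁ * e₂ ∨ T = e₁ * e₃ ∨ T = e₂ * e₃)) := by
  classical
  haveI : Finite (MulAut P) := Finite.of_injective (fun e : MulAut P => (e : P → P)) DFunLike.coe_injective
  have hsq : ∀ T ∈ I, T * T = 1 := fun T hT => by rw [← pow_two]; exact hI.2 T hT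
  have hcI : ∀ S ∈ I, ∀ T ∈ I, S * T = T * S := fun S hS T hT => by
    haveI := hI.1
    exact setLike_mul_comm hS hT
  have hinv : ∀ T ∈ I, T⁻¹ = T := fun T hT => inv_eq_of_mul_eq_one_right (hsq T hT)
  have hgen := eig_generate hP hp2 I hsq hcI
  have hfaith : ∀ T ∈ I, (∀ v, Eig I v → bar T v = v) → T = 1 := by
    intro T hT h
    refine eq_one_of_bar hP hp2 I hsq hT fun v => ?_
    have hv : v ∈ Subgroup.closure {v | Eig I v} := hgen ▸ mem_top v
    induction hv using Subgroup.closure_induction with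
    | mem v hv => exact h v hv
    | one => exact map_one _
    | mul a b _ _ iha ihb => rw [map_mul, iha, ihb]
    | inv a _ iha => rw [map_inv, iha]
  -- fixed eigenvectors
  have hflip : ∀ v, v ≠ 1 → Eig I v → ∀ T ∈ I, bar T v ≠ v → bar T v = v⁻¹ :=
    fun v _ hv T hT h => (hv T hT).resolve_left h
  have hmulfix : ∀ v, Eig I v → ∀ S ∈ I, ∀ T ∈ I, bar S v ≠ v → bar T v ≠ v → bar (S * T) v = v := by
    intro v hv S hS T hT h1 h2
    rw [bar_mul, (hv T hT).resolve_left h2, map_inv, (hv S hS).resolve_left h1, inv_inv]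
  have hmulmove : ∀ v, Eig I v → ∀ S ∈ I, ∀ T ∈ I, bar S v = v → bar T v ≠ v → bar (S * T) v ≠ v := by
    intro v hv S hS T hT h1 h2 h3
    rw [bar_mul, (hv T hT).resolve_left h2, map_inv, h1] at h3
    exact h2 ((hv T hT).resolve_left h2 ▸ h3)
  have hbr : ∀ T ∈ I, ∀ v w, v ≠ 1 → bar T v = v → bar T w = w → w ∉ zpowers v → Br T := by
    rintro T hT v w hv1 hv hw hwv ⟨g, hg⟩
    obtain ⟨y, hy, hy2⟩ := lift_quot hP hp2 I hsq hT hv
    obtain ⟨z, hz, hz2⟩ := lift_quot hP hp2 I hsq hT hw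
    obtain ⟨i, rfl⟩ := mem_zpowers_iff.1 ((hg y).1 hy2)
    obtain ⟨j, rfl⟩ := mem_zpowers_iff.1 ((hg z).1 hz2)
    have h1 : (g : P ⧸ frattini P) ∈ zpowers v := mem_zpowers_symm hP hv1 ⟨i, hy⟩
    exact hwv (hz ▸ by rw [QuotientGroup.mk_zpow]; exact zpow_mem h1 j)
  have hthree : ∀ a ∈ I, ∀ b ∈ I, a ≠ 1 → b ≠ 1 → a ≠ b → Br a → Br b → ¬ Br (a * b) := by
    intro a ha b hb ha1 hb1 hab h1 h2 h3
    refine hdisj _ (hprod a ha b hb ha1 hb1 h1 h2) (fun e => hab ?_) h3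
    rw [eq_inv_of_mul_eq_one_left e, hinv b hb]
  -- common fixed element
  have hcommon : ∀ v w, Eig I v → Eig I w → ∃ T ∈ I, T ≠ 1 ∧ bar T v = v ∧ bar T w = w := by
    intro v w hv hw
    by_contra hne
    push Not at hne
    have hinj : Function.Injective fun T : I =>
        (decide (bar (T : MulAut P) v = v), decide (bar (T : MulAut P) w = w)) := by
      intro S T h
      simp only [Prod.mk.injEq, decide_eq_decide] at h
      have key : ∀ u, Eig I u → (bar (S : MulAut P) u = u ↔ bar (T : MulAut P) u = u) →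
          bar ((S : MulAut P) * (T : MulAut P)) u = u := by
        intro u hu hiff
        by_cases hs : bar (S : MulAut P) u = u
        · rw [bar_mul, hiff.1 hs, hs]
        · exact hmulfix u hu _ S.2 _ T.2 hs (fun h => hs (hiff.2 h))
      by_contra hST
      refine hne _ (mul_mem S.2 T.2) (fun e => hST (Subtype.ext ?_)) (key v hv h.1) (key w hw h.2)
      rw [eq_inv_of_mul_eq_one_left e, hinv _ T.2]
    have := Nat.card_le_card_of_injective _ hinj
    rw [hI8, Nat.card_prod, Nat.card_eq_fintype_card (α := Bool), Fintype.card_bool] at this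
    omega
  have hsecond : ∀ v, Eig I v → ∀ a ∈ I, ∃ T ∈ I, T ≠ 1 ∧ T ≠ a ∧ bar T v = v := by
    intro v hv a ha
    by_contra hne
    push Not at hne
    by_cases hall : ∀ T ∈ I, bar T v = v
    · have := card_le_four I 1 a 1 a fun T hT => by
        by_cases h1 : T = 1
        · exact Or.inl h1
        · by_cases h2 : T = a
          · exact Or.inr (Or.inl h2)
          · exact absurd (hall T hT) (hne T hT h1 h2)
      omega
    push Not at hall
    obtain ⟨T0, hT0, hT0v⟩ := hall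
    have := card_le_four I 1 a T0 (a * T0) fun T hT => by
      by_cases h : bar T v = v
      · by_cases h1 : T = 1
        · exact Or.inl h1
        · by_cases h2 : T = a
          · exact Or.inr (Or.inl h2)
          · exact absurd h (hne T hT h1 h2)
      · have h1 := hmulfix v hv T hT T0 hT0 h hT0v
        have e : T = T * T0 * T0 := by rw [mul_assoc, hsq T0 hT0, mul_one]
        by_cases h2 : T * T0 = 1
        · exact Or.inr (Or.inr (Or.inl (by rw [e, h2, one_mul])))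
        · by_cases h3 : T * T0 = a
          · exact Or.inr (Or.inr (Or.inr (by rw [e, h3])))
          · exact absurd h1 (hne _ (mul_mem hT hT0) h2 h3)
    omega
  -- two lines share exactly one element
  have huniq : ∀ v w, v ≠ 1 → Eig I v → w ∉ zpowers v → Eig I w → ∀ a ∈ I, ∀ b ∈ I, a ≠ 1 → b ≠ 1 →
      bar a v = v → bar a w = w → bar b v = v → bar b w = w → a = b := by
    intro v w hv1 hv hwv hw a ha b hb ha1 hb1 h1 h2 h3 h4
    by_contra hab
    exact hthree a ha b hb ha1 hb1 hab (hbr a ha v w hv1 h1 h2 hwv) (hbr b hb v w hv1 h3 h4 hwv)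
      (hbr _ (mul_mem ha hb) v w hv1 (by rw [bar_mul, h3, h1]) (by rw [bar_mul, h4, h2]) hwv)
  -- a star cannot have three different elements
  have hstar : ∀ r s q u : P ⧸ frattini P, r ≠ 1 → Eig I r → Eig I s → Eig I q → Eig I u →
      s ∉ zpowers r → q ∉ zpowers r → u ∉ zpowers r →
      ∀ a ∈ I, ∀ b ∈ I, ∀ c ∈ I, a ≠ 1 → b ≠ 1 → c ≠ 1 →
      bar a r = r → bar b r = r → bar c r = r → bar a s = s → bar b q = q → bar c u = u →
      a = b ∨ a = c ∨ b = c := by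
    intro r s q u hr1 hr hs hq hu hsr hqr hur a ha b hb c hc ha1 hb1 hc1 har hbr' hcr has hbq hcu
    by_contra hne
    push Not at hne
    obtain ⟨hab, hac, hbc⟩ := hne
    have hcs : bar c s ≠ s := fun h => hac (huniq r s hr1 hr hsr hs a ha c hc ha1 hc1 har has hcr h)
    have hbs : bar b s ≠ s := fun h => hab (huniq r s hr1 hr hsr hs a ha b hb ha1 hb1 har has hbr' h)
    have h1 := hmulfix s hs b hb c hc hbs hcs
    have h2 : bar (b * c) r = r := by rw [bar_mul, hcr, hbr']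
    have hbc1 : b * c ≠ 1 := fun e => hbc (by rw [eq_inv_of_mul_eq_one_left e, hinv c hc])
    have h3 := huniq r s hr1 hr hsr hs a ha (b * c) (mul_mem hb hc) ha1 hbc1 har has h2 h1
    refine hthree b hb c hc hb1 hc1 hbc (hbr b hb r q hr1 hbr' hbq hqr) (hbr c hc r u hr1 hcr hcu hur) ?_
    rw [← h3]
    exact hbr a ha r s hr1 har has hsr
  have hsym : ∀ {v w : P ⧸ frattini P}, w ≠ 1 → v ≠ 1 → w ∉ zpowers v → v ∉ zpowers w :=
    fun _ hv h hc => h (mem_zpowers_symm hP hv hc)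
  -- three lines
  obtain ⟨v₁, hv₁, hv₁1⟩ : ∃ v, Eig I v ∧ v ≠ 1 := by
    by_contra hne
    push Not at hne
    have := card_le_four I 1 1 1 1 fun T hT => Or.inl (hfaith T hT fun v hv => by rw [hne v hv, map_one])
    omega
  obtain ⟨T1, hT1, hT11, hT1v, -⟩ := hcommon v₁ v₁ hv₁ hv₁
  obtain ⟨v₂, hv₂, hv₂T⟩ : ∃ v, Eig I v ∧ bar T1 v ≠ v := by
    by_contra hne
    push Not at hne
    exact hT11 (hfaith T1 hT1 hne)
  have hv₂1 : v₂ ≠ 1 := fun e => hv₂T (by rw [e, map_one])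
  have h21 : v₂ ∉ zpowers v₁ := fun h => hv₂T (by
    obtain ⟨i, rfl⟩ := mem_zpowers_iff.1 h
    rw [map_zpow, hT1v])
  obtain ⟨e₃, he₃, he₃1, h31, h32⟩ := hcommon v₁ v₂ hv₁ hv₂
  obtain ⟨v₃, hv₃, hv₃T⟩ : ∃ v, Eig I v ∧ bar e₃ v ≠ v := by
    by_contra hne
    push Not at hne
    exact he₃1 (hfaith e₃ he₃ hne)
  have hv₃1 : v₃ ≠ 1 := fun e => hv₃T (by rw [e, map_one])
  have h31' : v₃ ∉ zpowers v₁ := fun h => hv₃T (by
    obtain ⟨i, rfl⟩ := mem_zpowers_iff.1 h
    rw [map_zpow, h31])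
  have h32' : v₃ ∉ zpowers v₂ := fun h => hv₃T (by
    obtain ⟨i, rfl⟩ := mem_zpowers_iff.1 h
    rw [map_zpow, h32])
  obtain ⟨e₁, he₁, he₁1, h12, h13⟩ := hcommon v₂ v₃ hv₂ hv₃
  obtain ⟨e₂, he₂, he₂1, h2a, h23⟩ := hcommon v₁ v₃ hv₁ hv₃
  have n13 : e₁ ≠ e₃ := fun e => hv₃T (e ▸ h13)
  have n23 : e₂ ≠ e₃ := fun e => hv₃T (e ▸ h23)
  have n12 : e₁ ≠ e₂ := by
    intro e
    subst e
    -- `e₁` fixes all three lines
    obtain ⟨b, hb, hb1, hbe, hbv⟩ := hsecond v₁ hv₁ e₁ he₁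
    have hb2 : bar b v₂ ≠ v₂ := fun h => by
      exact hbe (huniq v₁ v₂ hv₁1 hv₁ h21 hv₂ b hb e₁ he₁ hb1 he₁1 hbv h h2a h12)
    exact n13 (huniq v₁ v₂ hv₁1 hv₁ h21 hv₂ e₁ he₁ e₃ he₃ he₁1 he₃1 h2a h12 h31 h32)
  have f1 : bar e₁ v₁ ≠ v₁ := fun h =>
    n12 (huniq v₁ v₃ hv₁1 hv₁ h31' hv₃ e₁ he₁ e₂ he₂ he₁1 he₂1 h h13 h2a h23)
  have f2 : bar e₂ v₂ ≠ v₂ := fun h =>
    n12 (huniq v₂ v₃ hv₂1 hv₂ h32' hv₃ e₁ he₁ e₂ he₂ he₁1 he₂1 h12 h13 h h23)
  -- no fourth line
  have hlines : ∀ w, Eig I w → w ∈ Subgroup.closure {v₁, v₂, v₃} := by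
    intro w hw
    by_contra hout
    have o1 : w ∉ zpowers v₁ := fun h => hout (zpowers_le.2 (subset_closure (by simp)) h)
    have o2 : w ∉ zpowers v₂ := fun h => hout (zpowers_le.2 (subset_closure (by simp)) h)
    have o3 : w ∉ zpowers v₃ := fun h => hout (zpowers_le.2 (subset_closure (by simp)) h)
    have hw1 : w ≠ 1 := fun e => hout (e ▸ one_mem _)
    obtain ⟨t₁, ht₁, ht₁1, a1, b1⟩ := hcommon v₁ w hv₁ hw
    obtain ⟨t₂, ht₂, ht₂1, a2, b2⟩ := hcommon v₂ w hv₂ hw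
    obtain ⟨t₃, ht₃, ht₃1, a3, b3⟩ := hcommon v₃ w hv₃ hw
    have r1 : v₁ ∉ zpowers w := hsym hw1 hv₁1 o1
    have r2 : v₂ ∉ zpowers w := hsym hw1 hv₂1 o2
    have r3 : v₃ ∉ zpowers w := hsym hw1 hv₃1 o3
    rcases hstar w v₁ v₂ v₃ hw1 hw hv₁ hv₂ hv₃ r1 r2 r3 t₁ ht₁ t₂ ht₂ t₃ ht₃ ht₁1 ht₂1 ht₃1
      b1 b2 b3 a1 a2 a3 with e | e | e
    · subst e
      have := huniq v₁ v₂ hv₁1 hv₁ h21 hv₂ t₁ ht₁ e₃ he₃ ht₁1 he₃1 a1 a2 h31 h32
      subst this
      rcases hstar v₃ v₁ v₂ w hv₃1 hv₃ hv₁ hv₂ hw (hsym hv₃1 hv₁1 h31') (hsym hv₃1 hv₂1 h32') o3 e₂ he₂ e₁ he₁ t₃ ht₃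
        he₂1 he₁1 ht₃1 h23 h13 a3 h2a h12 b3 with e | e | e
      · exact n12 e.symm
      · subst e
        exact n23 (huniq v₁ w hv₁1 hv₁ o1 hw _ he₂ _ ht₁ he₂1 ht₁1 h2a b3 a1 b1)
      · subst e
        exact n13 (huniq v₂ w hv₂1 hv₂ o2 hw _ he₁ _ ht₂ he₁1 ht₂1 h12 b3 a2 b2)
    · subst e
      have := huniq v₁ v₃ hv₁1 hv₁ h31' hv₃ t₁ ht₁ e₂ he₂ ht₁1 he₂1 a1 a3 h2a h23
      subst this
      rcases hstar v₂ v₁ v₃ w hv₂1 hv₂ hv₁ hv₃ hw (hsym hv₂1 hv₁1 h21) h32' o2 e₃ he₃ e₁ he₁ t₂ ht₂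
        he₃1 he₁1 ht₂1 h32 h12 a2 h31 h13 b2 with e | e | e
      · exact n13 e.symm
      · subst e
        exact n23 (huniq v₁ w hv₁1 hv₁ o1 hw _ ht₁ _ he₃ ht₁1 he₃1 a1 b1 h31 b2)
      · subst e
        exact n12 (huniq v₃ w hv₃1 hv₃ o3 hw _ he₁ _ ht₃ he₁1 ht₃1 h13 b2 a3 b3)
    · subst e
      have := huniq v₂ v₃ hv₂1 hv₂ h32' hv₃ t₂ ht₂ e₁ he₁ ht₂1 he₁1 a2 a3 h12 h13
      subst this
      rcases hstar v₁ v₂ v₃ w hv₁1 hv₁ hv₂ hv₃ hw h21 h31' o1 e₃ he₃ e₂ he₂ t₁ ht₁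
        he₃1 he₂1 ht₁1 h31 h2a a1 h32 h23 b1 with e | e | e
      · exact n23 e.symm
      · subst e
        exact n13 (huniq v₂ w hv₂1 hv₂ o2 hw _ ht₂ _ he₃ ht₂1 he₃1 a2 b2 h32 b1)
      · subst e
        exact n12 (huniq v₃ w hv₃1 hv₃ o3 hw _ ht₃ _ he₂ ht₃1 he₂1 a3 b3 h23 b1)
  have hVgen : Subgroup.closure {v₁, v₂, v₃} = ⊤ := by
    rw [eq_top_iff, ← hgen, Subgroup.closure_le]
    exact hlines
  have hfix3 : ∀ T ∈ I, bar T v₁ = v₁ → bar T v₂ = v₂ → bar T v₃ = v₃ → T = 1 := by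
    intro T hT a b c
    refine eq_one_of_bar hP hp2 I hsq hT fun v => ?_
    have hv : v ∈ Subgroup.closure {v₁, v₂, v₃} := hVgen ▸ mem_top v
    induction hv using Subgroup.closure_induction with
    | mem v hv => rcases hv with rfl | rfl | rfl <;> assumption
    | one => exact map_one _
    | mul a b _ _ iha ihb => rw [map_mul, iha, ihb]
    | inv a _ iha => rw [map_inv, iha]
  have hall : ∀ T ∈ I, T = 1 ∨ T = e₁ ∨ T = e₂ ∨ T = e₃ ∨ T = e₁ * e₂ ∨ T = e₁ * e₃ ∨ T = e₂ * e₃ ∨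
      T = e₁ * e₂ * e₃ := by
    intro T hT
    -- `S` corrects `T` on the three lines
    obtain ⟨S, hS, hSc⟩ : ∃ S ∈ I, (S = 1 ∨ S = e₁ ∨ S = e₂ ∨ S = e₃ ∨ S = e₁ * e₂ ∨ S = e₁ * e₃ ∨
        S = e₂ * e₃ ∨ S = e₁ * e₂ * e₃) ∧ (bar S v₁ = v₁ ↔ bar T v₁ = v₁) ∧
        (bar S v₂ = v₂ ↔ bar T v₂ = v₂) ∧ (bar S v₃ = v₃ ↔ bar T v₃ = v₃) := by
      have i1 := (hv₁ e₁ he₁).resolve_left f1
      have i2 := (hv₂ e₂ he₂).resolve_left f2
      have i3 := (hv₃ e₃ he₃).resolve_left hv₃T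
      have n1 := (sq_ne_one hP hp2 hv₁1).symm
      have n2 := (sq_ne_one hP hp2 hv₂1).symm
      have n3 := (sq_ne_one hP hp2 hv₃1).symm
      have m12 := mul_mem he₁ he₂
      by_cases c1 : bar T v₁ = v₁ <;> by_cases c2 : bar T v₂ = v₂ <;> by_cases c3 : bar T v₃ = v₃
      · exact ⟨1, one_mem _, by simp, by simp [bar_one, c1], by simp [bar_one, c2], by simp [bar_one, c3]⟩
      · exact ⟨e₃, he₃, by simp, by simp [h31, c1], by simp [h32, c2], by simp [i3, n3, c3]⟩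
      · exact ⟨e₂, he₂, by simp, by simp [h2a, c1], by simp [i2, n2, c2], by simp [h23, c3]⟩
      · exact ⟨e₂ * e₃, mul_mem he₂ he₃, by simp, by simp [bar_mul, h31, h2a, c1],
          by simp [bar_mul, h32, i2, n2, c2], by simp [bar_mul, i3, h23, n3, c3]⟩
      · exact ⟨e₁, he₁, by simp, by simp [i1, n1, c1], by simp [h12, c2], by simp [h13, c3]⟩
      · exact ⟨e₁ * e₃, mul_mem he₁ he₃, by simp, by simp [bar_mul, h31, i1, n1, c1],
          by simp [bar_mul, h32, h12, c2], by simp [bar_mul, i3, h13, n3, c3]⟩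
      · exact ⟨e₁ * e₂, m12, by simp, by simp [bar_mul, h2a, i1, n1, c1],
          by simp [bar_mul, i2, h12, n2, c2], by simp [bar_mul, h23, h13, c3]⟩
      · exact ⟨e₁ * e₂ * e₃, mul_mem m12 he₃, by simp, by simp [bar_mul, h31, h2a, i1, n1, c1],
          by simp [bar_mul, h32, i2, h12, n2, c2], by simp [bar_mul, i3, h23, h13, n3, c3]⟩
    obtain ⟨hform, k1, k2, k3⟩ := hSc
    have key : ∀ u, Eig I u → (bar S u = u ↔ bar T u = u) → bar (S * T) u = u := by
      intro u hu hiff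
      by_cases hs : bar S u = u
      · rw [bar_mul, hiff.1 hs, hs]
      · exact hmulfix u hu _ hS _ hT hs (fun h => hs (hiff.2 h))
    have e := hfix3 _ (mul_mem hS hT) (key _ hv₁ k1) (key _ hv₂ k2) (key _ hv₃ k3)
    have : T = S := by rw [← hinv T hT]; exact (eq_inv_of_mul_eq_one_left e).symm
    rw [this]; exact hform
  -- broadness of the three generators
  have b1 : Br e₁ := hbr e₁ he₁ v₂ v₃ hv₂1 h12 h13 h32'
  have b2 : Br e₂ := hbr e₂ he₂ v₁ v₃ hv₁1 h2a h23 h31'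
  have b3 : Br e₃ := hbr e₃ he₃ v₁ v₂ hv₁1 h31 h32 h21
  have p12 : e₁ * e₂ ∈ I₀ := hprod _ he₁ _ he₂ he₁1 he₂1 b1 b2
  have p13 : e₁ * e₃ ∈ I₀ := hprod _ he₁ _ he₃ he₁1 he₃1 b1 b3
  have p23 : e₂ * e₃ ∈ I₀ := hprod _ he₂ _ he₃ he₂1 he₃1 b2 b3
  have q12 : e₁ * e₂ ≠ 1 := fun e => n12 (by rw [eq_inv_of_mul_eq_one_left e, hinv _ he₂])
  have q13 : e₁ * e₃ ≠ 1 := fun e => n13 (by rw [eq_inv_of_mul_eq_one_left e, hinv _ he₃])
  have q23 : e₂ * e₃ ≠ 1 := fun e => n23 (by rw [eq_inv_of_mul_eq_one_left e, hinv _ he₃])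
  have hI0 : ∀ T, T ∈ I₀ ↔ (T = 1 ∨ T = e₁ * e₂ ∨ T = e₁ * e₃ ∨ T = e₂ * e₃) := by
    intro T
    constructor
    · intro hT
      rcases hall T (hI₀.le hT) with rfl | rfl | rfl | rfl | rfl | rfl | rfl | rfl
      · simp
      · exact absurd b1 (hdisj _ hT he₁1)
      · exact absurd b2 (hdisj _ hT he₂1)
      · exact absurd b3 (hdisj _ hT he₃1)
      · simp
      · simp
      · simp
      · exfalso
        have : e₁ ∈ I₀ := by
          have h := mul_mem hT p23
          rwa [hcI _ he₂ _ he₃, mul_assoc, mul_assoc, ← mul_assoc e₃ e₃, hsq _ he₃, one_mul,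
            hsq _ he₂, mul_one] at h
        exact hdisj _ this he₁1 b1
    · rintro (rfl | rfl | rfl | rfl)
      exacts [one_mem _, p12, p13, p23]
  -- cyclic fixed groups of the products
  have hcyc : ∀ T ∈ I, ∀ E ∈ I, ∀ E' ∈ I, ∀ v, v ≠ 1 → ¬ Br T → bar T v = v → E * T = T * E →
      E' * T = T * E' → bar E v ≠ v → bar E' v = v → Eig I v →
      ∃ g : P, (g : P ⧸ frattini P) ∈ zpowers v ∧ v ∈ zpowers (g : P ⧸ frattini P) ∧
        (∀ y, T y = y → y ∈ zpowers g) ∧ E g = g⁻¹ ∧ E' g = g ∧ T g = g := by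
    intro T hT E hE E' hE' v hv1 hnb hTv hET hE'T hEv hE'v hv
    rw [Br, not_not] at hnb
    obtain ⟨g, hg⟩ := hnb
    obtain ⟨y, hy, hy2⟩ := lift_quot hP hp2 I hsq hT hTv
    obtain ⟨i, rfl⟩ := mem_zpowers_iff.1 ((hg y).1 hy2)
    have hgv : (g : P ⧸ frattini P) ∈ zpowers v := mem_zpowers_symm hP hv1 ⟨i, hy⟩
    have hvg : v ∈ zpowers (g : P ⧸ frattini P) := ⟨i, hy⟩
    have hgT : T g = g := (hg g).2 (mem_zpowers g)
    have hg1 : (g : P ⧸ frattini P) ≠ 1 := fun e => hv1 (by rw [e] at hvg; simpa using hvg)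
    obtain ⟨n, hn⟩ := hP g
    have hact : ∀ U ∈ I, U * T = T * U → ∃ k : ℤ, U g = g ^ k ∧ g ^ (k * k - 1) = 1 := by
      intro U hU hUT
      obtain ⟨k, hk⟩ := mem_zpowers_iff.1 ((hg (U g)).1 (by
        rw [← MulAut.mul_apply, ← hUT, MulAut.mul_apply, hgT]))
      refine ⟨k, hk.symm, ?_⟩
      have h1 : U (U g) = g := by rw [← MulAut.mul_apply, hsq U hU]; rfl
      rw [← hk, map_zpow, ← hk, ← zpow_mul] at h1
      rw [zpow_sub, h1, zpow_one, mul_inv_cancel]
    obtain ⟨m, hmo⟩ : ∃ m : ℕ, orderOf g = p ^ m := IsPGroup.iff_orderOf.1 hP g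
    obtain ⟨k, hk, hk2⟩ := hact E hE hET
    obtain ⟨l, hl, hl2⟩ := hact E' hE' hE'T
    have hpi : Prime (p : ℤ) := Nat.prime_iff_prime_int.1 hp.out
    have hdeduce : ∀ a b : ℤ, g ^ (a * b) = 1 → ¬ (p : ℤ) ∣ a → g ^ b = 1 := by
      intro a b h hpa
      rw [← orderOf_dvd_iff_zpow_eq_one, hmo] at h ⊢
      push_cast at h ⊢
      exact (IsCoprime.pow_left ((hpi.coprime_iff_not_dvd).2 hpa)).dvd_of_dvd_mul_left h
    have hpfrom : ∀ a : ℤ, (p : ℤ) ∣ a → (g : P ⧸ frattini P) ^ a = 1 := by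
      rintro a ⟨c, rfl⟩
      rw [zpow_mul, zpow_natCast, quot_pow hP, one_zpow]
    have hgfix : ∀ U : MulAut P, bar U v = v → bar U (g : P ⧸ frattini P) = g := fun U h => by
      obtain ⟨j, hj⟩ := mem_zpowers_iff.1 hgv
      rw [← hj, map_zpow, h]
    refine ⟨g, hgv, hvg, fun y hy => (hg y).1 hy, ?_, ?_, hgT⟩
    · have : g ^ (k + 1) = 1 := by
        refine hdeduce (k - 1) _ (by rw [show (k - 1) * (k + 1) = k * k - 1 by ring]; exact hk2) fun hd => ?_
        apply hEv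
        have h1 : bar E (g : P ⧸ frattini P) = g := by
          rw [bar_mk, hk, QuotientGroup.mk_zpow, show k = (k - 1) + 1 by ring, zpow_add, zpow_one, hpfrom _ hd, one_mul]
        obtain ⟨j, hj⟩ := mem_zpowers_iff.1 hvg
        rw [← hj, map_zpow, h1]
      rw [hk]
      rw [zpow_add, zpow_one] at this
      exact eq_inv_of_mul_eq_one_left this
    · have : g ^ (l - 1) = 1 := by
        refine hdeduce (l + 1) _ (by rw [show (l + 1) * (l - 1) = l * l - 1 by ring]; exact hl2) fun hd => ?_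
        have h1 := hgfix E' hE'v
        rw [bar_mk, hl, QuotientGroup.mk_zpow, show l = (l + 1) - 1 by ring, zpow_sub, zpow_one, hpfrom _ hd,
          one_mul] at h1
        exact sq_ne_one hP hp2 hg1 h1.symm
      rw [hl]
      rw [zpow_sub, zpow_one, mul_inv_eq_one] at this
      exact this
  have nb12 := hdisj _ p12 q12
  have nb13 := hdisj _ p13 q13
  have nb23 := hdisj _ p23 q23
  have c12 := hcI _ he₁ _ he₂
  obtain ⟨g₁, g1v, v1g, g1all, g1e1, g1e2, g1T⟩ := hcyc (e₂ * e₃) (mul_mem he₂ he₃) e₁ he₁ e₂ he₂ v₁ hv₁1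
    nb23 (by rw [bar_mul, h31, h2a]) (hcI _ he₁ _ (mul_mem he₂ he₃)) (hcI _ he₂ _ (mul_mem he₂ he₃)) f1 h2a hv₁
  obtain ⟨g₂, g2v, v2g, g2all, g2e2, g2e1, g2T⟩ := hcyc (e₁ * e₃) (mul_mem he₁ he₃) e₂ he₂ e₁ he₁ v₂ hv₂1
    nb13 (by rw [bar_mul, h32, h12]) (hcI _ he₂ _ (mul_mem he₁ he₃)) (hcI _ he₁ _ (mul_mem he₁ he₃)) f2 h12 hv₂
  obtain ⟨g₃, g3v, v3g, g3all, g3e3, g3e1, g3T⟩ := hcyc (e₁ * e₂) (mul_mem he₁ he₂) e₃ he₃ e₁ he₁ v₃ hv₃1
    nb12 (by rw [bar_mul, h23, h13]) (hcI _ he₃ _ (mul_mem he₁ he₂)) (hcI _ he₁ _ (mul_mem he₁ he₂)) hv₃T h13 hv₃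
  have g1e3 : e₃ g₁ = g₁ := by
    have h : e₂ (e₃ g₁) = g₁ := g1T
    exact e₂.injective (h.trans g1e2.symm)
  have g2e3 : e₃ g₂ = g₂ := by
    have h : e₁ (e₃ g₂) = g₂ := g2T
    exact e₁.injective (h.trans g2e1.symm)
  have g3e2 : e₂ g₃ = g₃ := by
    have h : e₁ (e₂ g₃) = g₃ := g3T
    exact e₁.injective (h.trans g3e1.symm)
  have hPgen : Subgroup.closure {g₁, g₂, g₃} = ⊤ := by
    refine frattini_nongenerating (eq_top_iff.2 fun x _ => ?_)
    have hx : (x : P ⧸ frattini P) ∈ (Subgroup.closure {g₁, g₂, g₃}).map (QuotientGroup.mk' (frattini P)) := by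
      refine (eq_top_iff.1 ?_ : (⊤ : Subgroup (P ⧸ frattini P)) ≤ _) (mem_top _)
      rw [eq_top_iff, ← hVgen, Subgroup.closure_le]
      rintro v (rfl | rfl | rfl)
      · obtain ⟨i, hi⟩ := mem_zpowers_iff.1 v1g
        exact ⟨g₁ ^ i, zpow_mem (subset_closure (by simp)) i, hi⟩
      · obtain ⟨i, hi⟩ := mem_zpowers_iff.1 v2g
        exact ⟨g₂ ^ i, zpow_mem (subset_closure (by simp)) i, hi⟩
      · obtain ⟨i, hi⟩ := mem_zpowers_iff.1 v3g
        exact ⟨g₃ ^ i, zpow_mem (subset_closure (by simp)) i, hi⟩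
    obtain ⟨y, hy, hyx⟩ := hx
    have hm : y⁻¹ * x ∈ frattini P := QuotientGroup.eq.1 hyx
    rw [show x = y * (y⁻¹ * x) by group]
    exact mul_mem (mem_sup_left hy) (mem_sup_right hm)
  -- commutativity
  set L : Subgroup P := ⁅commutator P, (⊤ : Subgroup P)⁆ with hL
  have hLmap : ∀ a : MulAut P, ∀ l ∈ L, a l ∈ L := fun a l hl =>
    Subgroup.characteristic_iff_le_comap.mp (inferInstance : L.Characteristic) a hl
  have hkey : ∀ x y z : P, ∀ T ∈ I, ∀ E ∈ I, T x = x⁻¹ → T y = y⁻¹ → E x = x → E y = y → E z = z⁻¹ →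
      (∀ w, T w = w → w ∈ zpowers z) → ⁅x, y⁆ ∈ L := by
    intro x y z T hT E hE hTx hTy hEx hEy hEz hfix
    set c := ⁅x, y⁆
    have hc : c ∈ commutator P := Subgroup.commutator_mem_commutator (mem_top x) (mem_top y)
    have hTc : T c = (y * x)⁻¹ * c * (y * x) := by
      simp only [c, commutatorElement_def, map_mul, map_inv, hTx, hTy]
      group
    have hcL : c * (T c)⁻¹ ∈ L := by
      have h1 : ⁅c, (y * x)⁻¹⁆ ∈ L := Subgroup.commutator_mem_commutator hc (mem_top _)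
      have e : c * (T c)⁻¹ = ⁅c, (y * x)⁻¹⁆ := by rw [hTc, commutatorElement_def]; group
      rw [e]; exact h1
    obtain ⟨l, hl, w, hw, hw2⟩ := lift hP hp2 I hsq hT L hLmap hcL
    obtain ⟨j, rfl⟩ := mem_zpowers_iff.1 (hfix w hw2)
    have hEc : E c = c := by simp only [c, map_commutatorElement, hEx, hEy]
    rw [hw, map_mul, map_zpow, hEz, inv_zpow] at hEc
    have hw3 : z ^ j * z ^ j ∈ L := by
      have : z ^ j * z ^ j = l⁻¹ * E l := by
        rw [eq_inv_mul_iff_mul_eq, ← mul_assoc, ← hEc, inv_mul_cancel_right]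
      rw [this]
      exact L.mul_mem (L.inv_mem hl) (hLmap E l hl)
    have hwL : z ^ j ∈ L := by
      obtain ⟨n, hn⟩ := hP (z ^ j)
      obtain ⟨h, hh⟩ : Odd (p ^ n) := (hp.out.odd_of_ne_two hp2).pow
      have e : z ^ j = (((z ^ j) * (z ^ j)) ^ (h + 1)) := by
        rw [← pow_two, ← pow_mul, show 2 * (h + 1) = p ^ n + 1 by omega, pow_succ, hn, one_mul]
      rw [e]; exact L.pow_mem hw3 _
    rw [hw]; exact L.mul_mem hl hwL
  have k12 : ⁅g₁, g₂⁆ ∈ L := hkey g₁ g₂ g₃ _ (mul_mem he₁ he₂) e₃ he₃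
    (by rw [MulAut.mul_apply, g1e2, g1e1]) (by rw [MulAut.mul_apply, g2e2, map_inv, g2e1]) g1e3 g2e3 g3e3 g3all
  have k13 : ⁅g₁, g₃⁆ ∈ L := hkey g₁ g₃ g₂ _ (mul_mem he₁ he₃) e₂ he₂
    (by rw [MulAut.mul_apply, g1e3, g1e1]) (by rw [MulAut.mul_apply, g3e3, map_inv, g3e1]) g1e2 g3e2 g2e2 g2all
  have k23 : ⁅g₂, g₃⁆ ∈ L := hkey g₂ g₃ g₁ _ (mul_mem he₂ he₃) e₁ he₁
    (by rw [MulAut.mul_apply, g2e3, g2e2]) (by rw [MulAut.mul_apply, g3e3, map_inv, g3e2]) g2e1 g3e1 g1e1 g1all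
  haveI : L.Normal := inferInstance
  set π := QuotientGroup.mk' L
  have hcomm' : ∀ x y : P, ⁅x, y⁆ ∈ L → π x * π y = π y * π x := fun x y h => by
    rw [← commutatorElement_eq_one_iff_mul_comm, ← map_commutatorElement]
    exact (QuotientGroup.eq_one_iff _).2 h
  have hclosure : IsMulCommutative (Subgroup.closure (π '' {g₁, g₂, g₃})) := by
    refine Subgroup.isMulCommutative_closure ?_
    rintro _ ⟨x, hx, rfl⟩ _ ⟨y, hy, rfl⟩
    rcases hx with rfl | rfl | rfl <;> rcases hy with rfl | rfl | rfl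
    all_goals first
      | rfl
      | exact hcomm' _ _ k12
      | exact hcomm' _ _ k13
      | exact hcomm' _ _ k23
      | exact (hcomm' _ _ k12).symm
      | exact (hcomm' _ _ k13).symm
      | exact (hcomm' _ _ k23).symm
  have hmemπ : ∀ x : P, π x ∈ Subgroup.closure (π '' {g₁, g₂, g₃}) := fun x => by
    rw [← MonoidHom.map_closure, hPgen]; exact mem_map_of_mem π (mem_top x)
  have hle : commutator P ≤ L := by
    rw [commutator_def, Subgroup.commutator_le]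
    intro x _ y _
    rw [← QuotientGroup.eq_one_iff, ← QuotientGroup.mk'_apply, map_commutatorElement,
      commutatorElement_eq_one_iff_mul_comm]
    haveI := hclosure
    exact setLike_mul_comm (hmemπ x) (hmemπ y)
  have hbot : commutator P = ⊥ := by
    haveI : Group.IsNilpotent P := hP.isNilpotent
    obtain ⟨n, hn⟩ := Subgroup.nilpotent_iff_lowerCentralSeries.1 (inferInstance : Group.IsNilpotent P)
    have : ∀ k, commutator P ≤ (⊤ : Subgroup P).lowerCentralSeries k := by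
      intro k
      induction k with
      | zero => exact le_top
      | succ k ih =>
        rw [Subgroup.lowerCentralSeries_succ]
        exact hle.trans (Subgroup.commutator_mono ih le_rfl)
    rw [eq_bot_iff, ← hn]
    exact this n
  have hab : ∀ x y : P, x * y = y * x := fun x y => by
    rw [← commutatorElement_eq_one_iff_mul_comm, ← Subgroup.mem_bot, ← hbot]
    exact Subgroup.commutator_mem_commutator (mem_top x) (mem_top y)
  refine ⟨⟨⟨hab⟩⟩, ⟨g₁, g₂, g₃, hPgen⟩, ?_, e₁, e₂, e₃, n12, n13, n23, ?_, ?_, hI0⟩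
  · rintro ⟨a, b, hab'⟩
    -- the quotient would have order at most `p²`
    have hV : ∀ v : P ⧸ frattini P, ∃ i j : Fin p, v = (a : P ⧸ frattini P) ^ (i : ℕ) * (b : P ⧸ frattini P) ^ (j : ℕ) := by
      intro v
      have hc : Commute (a : P ⧸ frattini P) b := quot_comm hP _ _
      obtain ⟨x, rfl⟩ := QuotientGroup.mk_surjective v
      have hx : x ∈ Subgroup.closure {a, b} := hab' ▸ mem_top x
      obtain ⟨i, j, hij⟩ : ∃ i j : ℤ, (x : P ⧸ frattini P) = (a : P ⧸ frattini P) ^ i * (b : P ⧸ frattini P) ^ j := by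
        induction hx using Subgroup.closure_induction with
        | mem w hw =>
          rcases hw with rfl | rfl
          · exact ⟨1, 0, by simp⟩
          · exact ⟨0, 1, by simp⟩
        | one => exact ⟨0, 0, by simp⟩
        | mul x y _ _ ihx ihy =>
          obtain ⟨i, j, hx⟩ := ihx
          obtain ⟨i', j', hy⟩ := ihy
          refine ⟨i + i', j + j', ?_⟩
          rw [QuotientGroup.mk_mul, hx, hy, zpow_add, zpow_add]
          simp only [mul_assoc]
          rw [← mul_assoc ((b : P ⧸ frattini P) ^ j), quot_comm hP ((b : P ⧸ frattini P) ^ j) ((a : P ⧸ frattini P) ^ i'), mul_assoc]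
        | inv x _ ihx =>
          obtain ⟨i, j, hx⟩ := ihx
          refine ⟨-i, -j, ?_⟩
          rw [QuotientGroup.mk_inv, hx, mul_inv_rev, zpow_neg, zpow_neg]
          exact quot_comm hP _ _
      have hp0 : 0 < (p : ℤ) := by exact_mod_cast hp.out.pos
      have red : ∀ (w : P ⧸ frattini P) (i : ℤ), w ^ i = w ^ ((i % p).toNat) := fun w i => by
        rw [← zpow_natCast, Int.toNat_of_nonneg (Int.emod_nonneg _ hp0.ne')]
        conv_lhs => rw [← Int.emod_add_mul_ediv i p, zpow_add, zpow_mul, zpow_natCast, quot_pow hP, one_zpow, mul_one]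
      have hlt : ∀ i : ℤ, (i % p).toNat < p := fun i => by
        have := Int.emod_lt_of_pos i hp0; omega
      exact ⟨⟨_, hlt i⟩, ⟨_, hlt j⟩, by rw [hij, red, red _ j]⟩
    have hle2 : Nat.card (P ⧸ frattini P) ≤ p * p := by
      have := Nat.card_le_card_of_surjective
        (fun ij : Fin p × Fin p => (a : P ⧸ frattini P) ^ (ij.1 : ℕ) * (b : P ⧸ frattini P) ^ (ij.2 : ℕ))
        (fun v => by obtain ⟨i, j, h⟩ := hV v; exact ⟨(i, j), h.symm⟩)
      simpa [Nat.card_prod] using this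
    have hinj : Function.Injective fun ijk : Fin p × Fin p × Fin p =>
        v₁ ^ (ijk.1 : ℤ) * v₂ ^ (ijk.2.1 : ℤ) * v₃ ^ (ijk.2.2 : ℤ) := by
      rintro ⟨i, j, k⟩ ⟨i', j', k'⟩ h
      simp only at h
      have i1 := (hv₁ e₁ he₁).resolve_left f1
      have i2 := (hv₂ e₂ he₂).resolve_left f2
      have i3 := (hv₃ e₃ he₃).resolve_left hv₃T
      letI : CommGroup (P ⧸ frattini P) := { (inferInstance : Group (P ⧸ frattini P)) with mul_comm := quot_comm hP }
      have a1 := congrArg (bar e₁) h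
      have a2 := congrArg (bar e₂) h
      have a3 := congrArg (bar e₃) h
      simp only [map_mul, map_zpow, i1, h12, h13, inv_zpow] at a1
      simp only [map_mul, map_zpow, i2, h2a, h23, inv_zpow] at a2
      simp only [map_mul, map_zpow, i3, h31, h32, inv_zpow] at a3
      have get : ∀ {v : P ⧸ frattini P} {s t : Fin p}, v ≠ 1 → v ^ (s : ℤ) * v ^ (s : ℤ) = v ^ (t : ℤ) * v ^ (t : ℤ) → s = t := by
        intro v s t hv hst
        rw [← zpow_add, ← zpow_add, ← mul_inv_eq_one, ← zpow_sub] at hst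
        have h1 := zpow_eq_one_of hP hv hst
        rw [show (s : ℤ) + s - ((t : ℤ) + t) = 2 * ((s : ℤ) - t) by ring] at h1
        rcases (Nat.prime_iff_prime_int.1 hp.out).dvd_mul.1 h1 with h2 | h2
        · exact absurd ((Nat.prime_dvd_prime_iff_eq hp.out Nat.prime_two).1 (by exact_mod_cast h2)) hp2
        · have := Int.eq_zero_of_abs_lt_dvd h2 (by rw [abs_lt]; omega)
          exact Fin.ext (by omega)
      have cancel : ∀ {A B C A' B' C' : P ⧸ frattini P}, A * B * C = A' * B' * C' →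
          A⁻¹ * B * C = A'⁻¹ * B' * C' → A * A = A' * A' := by
        intro A B C A' B' C' e e'
        have := congrArg₂ (· / ·) e e'
        simpa [div_eq_mul_inv, mul_comm, mul_left_comm, mul_assoc] using this
      have hi := get hv₁1 (cancel h a1)
      have hj := get hv₂1 (cancel (B := v₁ ^ (i : ℤ)) (B' := v₁ ^ (i' : ℤ))
        (by rw [mul_comm (v₂ ^ (j : ℤ)), mul_comm (v₂ ^ (j' : ℤ))]; exact h)
        (by rw [mul_comm (v₂ ^ (j : ℤ))⁻¹, mul_comm (v₂ ^ (j' : ℤ))⁻¹]; exact a2))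
      have hk := get hv₃1 (cancel (B := v₁ ^ (i : ℤ)) (B' := v₁ ^ (i' : ℤ)) (C := v₂ ^ (j : ℤ)) (C' := v₂ ^ (j' : ℤ))
        (by rw [mul_assoc, mul_comm (v₃ ^ (k : ℤ)), mul_assoc (v₃ ^ (k' : ℤ)), mul_comm (v₃ ^ (k' : ℤ))]; exact h)
        (by rw [mul_assoc, mul_comm (v₃ ^ (k : ℤ))⁻¹, mul_assoc (v₃ ^ (k' : ℤ))⁻¹, mul_comm (v₃ ^ (k' : ℤ))⁻¹]; exact a3))
      simp [hi, hj, hk]
    have := Nat.card_le_card_of_injective _ hinj
    simp only [Nat.card_prod, Nat.card_fin] at this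
    have := hp.out.two_le
    nlinarith
  · intro T
    constructor
    · rintro ⟨hT, hT1, hTb⟩
      rcases hall T hT with rfl | rfl | rfl | rfl | rfl | rfl | rfl | rfl
      · exact absurd rfl hT1
      · simp
      · simp
      · simp
      · exact absurd hTb nb12
      · exact absurd hTb nb13
      · exact absurd hTb nb23
      · exfalso
        -- all three generators are inverted, so only `1` is fixed
        apply hTb
        refine ⟨1, fun x => ⟨fun hx => ?_, fun hx => by simp at hx; simp [hx]⟩⟩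
        have hneg : ∀ y : P, (e₁ * e₂ * e₃) y = y⁻¹ := by
          intro y
          have hy : y ∈ Subgroup.closure {g₁, g₂, g₃} := hPgen ▸ mem_top y
          induction hy using Subgroup.closure_induction with
          | mem w hw =>
            rcases hw with rfl | rfl | rfl
            · rw [MulAut.mul_apply, g1e3, MulAut.mul_apply, g1e2, g1e1]
            · rw [MulAut.mul_apply, g2e3, MulAut.mul_apply, g2e2, map_inv, g2e1]
            · rw [MulAut.mul_apply, g3e3, map_inv, MulAut.mul_apply, g3e2, g3e1]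
          | one => simp
          | mul a b _ _ iha ihb => rw [map_mul, iha, ihb, mul_inv_rev, hab]
          | inv a _ iha => rw [map_inv, iha]
        rw [hneg] at hx
        obtain ⟨n, hn⟩ := hP x
        obtain ⟨h, hh⟩ : Odd (p ^ n) := (hp.out.odd_of_ne_two hp2).pow
        have h2 : x * x = 1 := by nth_rewrite 1 [← hx]; exact inv_mul_cancel x
        rw [hh, pow_succ, pow_mul, pow_two, h2, one_pow, one_mul] at hn
        simp [hn]
    · rintro (rfl | rfl | rfl)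
      exacts [⟨he₁, he₁1, b1⟩, ⟨he₂, he₂1, b2⟩, ⟨he₃, he₃1, b3⟩]
  · apply le_antisymm
    · rw [Subgroup.closure_le]
      rintro T (rfl | rfl | rfl) <;> assumption
    · intro T hT
      have m1 : e₁ ∈ Subgroup.closure {e₁, e₂, e₃} := subset_closure (by simp)
      have m2 : e₂ ∈ Subgroup.closure {e₁, e₂, e₃} := subset_closure (by simp)
      have m3 : e₃ ∈ Subgroup.closure {e₁, e₂, e₃} := subset_closure (by simp)
      rcases hall T hT with rfl | rfl | rfl | rfl | rfl | rfl | rfl | rfl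
      exacts [one_mem _, m1, m2, m3, mul_mem m1 m2, mul_mem m1 m3, mul_mem m2 m3, mul_mem (mul_mem m1 m2) m3]

end Cfsg.Agent.FGS4.BroadKlein
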