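import Cfsg.Agent.S5396
import Cfsg.Agent.Transfer.ExtraspecialIso

/-! # Extraspecial 2-groups are classified by the number of square roots of one -/

set_option linter.style.haveILetI false

namespace Cfsg.Agent.FGS4.ExtraTwo

open Cfsg.Agent.S5396
open Cfsg.Agent.Transfer
open scoped commutatorElement

variable {n : ℕ}

/-- The type of the last block. -/
def sType (b : Bool) (n : ℕ) : Fin n → Bool := fun i => decide (b = true ∧ (i : ℕ) + 1 = n)

theorem model_basis (b : Bool) (n : ℕ) :
    ∃ x y : Fin n → Ext (sType b n),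
      ESIso.Basis 2 (⟨0, 1⟩ : Ext (sType b n)) ⊤ x y (ESIso.qType b n) := by
  classical
  set s := sType b n
  refine ⟨fun i => ⟨Pi.single i (1, 0), 0⟩, fun i => ⟨Pi.single i (0, 1), 0⟩, ?_⟩
  have hform : ∀ (i j : Fin n) (u w : ZMod 2 × ZMod 2),
      form s (Pi.single i u) (Pi.single j w) = if i = j then blk (s i) u w else 0 := by
    intro i j u w
    rw [form, Finset.sum_eq_single i]
    · by_cases h : i = j
      · subst h; simp
      · rw [if_neg h, Pi.single_eq_of_ne h]; simp [blk]
    · intro k _ hk; simp [Pi.single_eq_of_ne hk, blk]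
    · simp
  have hcomm : ∀ g h : Ext s, ⁅g, h⁆ = ⟨0, form s g.v h.v + form s h.v g.v⟩ := by
    intro g h
    rw [commutatorElement_def, mul_inv_eq_iff_eq_mul, mul_inv_eq_iff_eq_mul]
    ext : 1
    · simp [add_comm]
    · simp [form_zero_left]
      linear_combination (-form s h.v g.v) * two_eq
  have hzpow : ∀ k : ℕ, (⟨0, 1⟩ : Ext s) ^ k = ⟨0, k⟩ := by
    intro k
    induction k with
    | zero => ext : 1 <;> simp
    | succ k ih => rw [pow_succ, ih]; ext : 1 <;> simp [form_zero_left]
  constructor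
  · symm
    rw [eq_top_iff]
    set H := Subgroup.closure (Set.range (fun i => (⟨Pi.single i (1, 0), 0⟩ : Ext s)) ∪
      Set.range (fun i => (⟨Pi.single i (0, 1), 0⟩ : Ext s)) ∪ {(⟨0, 1⟩ : Ext s)})
    have hz : ∀ a : ZMod 2, (⟨0, a⟩ : Ext s) ∈ H := by
      intro a
      obtain ⟨k, rfl⟩ : ∃ k : ℕ, (k : ZMod 2) = a := ⟨a.val, ZMod.natCast_zmod_val a⟩
      rw [← hzpow]
      exact pow_mem (show (⟨0, 1⟩ : Ext s) ∈ H from Subgroup.subset_closure (Or.inr rfl)) k
    have hlift : ∀ g h : Ext s, g.v = h.v → g ∈ H → h ∈ H := by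
      intro g h e hg
      have : h = g * ⟨0, h.a - g.a⟩ := by
        ext : 1
        · simp [e]
        · simp [form_zero_right]
      rw [this]
      exact mul_mem hg (hz _)
    have hsingle : ∀ (i : Fin n) (u : ZMod 2 × ZMod 2), ∃ g ∈ H, g.v = Pi.single i u := by
      intro i u
      have hx : (⟨Pi.single i (1, 0), 0⟩ : Ext s) ∈ H := Subgroup.subset_closure (Or.inl (Or.inl ⟨i, rfl⟩))
      have hy : (⟨Pi.single i (0, 1), 0⟩ : Ext s) ∈ H := Subgroup.subset_closure (Or.inl (Or.inr ⟨i, rfl⟩))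
      have hu : u = (0, 0) ∨ u = (1, 0) ∨ u = (0, 1) ∨ u = (1, 0) + (0, 1) := by
        revert u; decide
      rcases hu with rfl | rfl | rfl | rfl
      · exact ⟨1, one_mem _, (Pi.single_zero i).symm⟩
      · exact ⟨_, hx, rfl⟩
      · exact ⟨_, hy, rfl⟩
      · exact ⟨_, mul_mem hx hy, by rw [mul_v, Pi.single_add]⟩
    intro g _
    suffices h : ∀ t : Finset (Fin n), ∃ h ∈ H, h.v = ∑ i ∈ t, Pi.single i (g.v i) by
      obtain ⟨h, hh, he⟩ := h Finset.univ
      refine hlift h g ?_ hh
      rw [he]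
      exact Finset.univ_sum_single g.v
    intro t
    induction t using Finset.induction_on with
    | empty => exact ⟨1, one_mem _, by simp⟩
    | insert i t hi ih =>
      obtain ⟨h, hh, he⟩ := ih
      obtain ⟨h', hh', he'⟩ := hsingle i (g.v i)
      exact ⟨h' * h, mul_mem hh' hh, by rw [mul_v, he, he', Finset.sum_insert hi]⟩
  · rw [Subgroup.card_top, card_ext]
  · intro i j
    rw [hcomm, hzpow, hform, hform]
    congr 1
    by_cases h : i = j
    · subst h; simp [blk]
    · simp [if_neg h, if_neg (Ne.symm h)]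
  · intro i j
    rw [hcomm, hform, hform]
    ext : 1
    · rfl
    · by_cases h : i = j
      · subst h
        simp only [one_a, if_true]
        linear_combination (blk (s i) (1, 0) (1, 0)) * two_eq
      · simp [if_neg h, if_neg (Ne.symm h)]
  · intro i j
    rw [hcomm, hform, hform]
    ext : 1
    · rfl
    · by_cases h : i = j
      · subst h
        simp only [one_a, if_true]
        linear_combination (blk (s i) (0, 1) (0, 1)) * two_eq
      · simp [if_neg h, if_neg (Ne.symm h)]
  · intro i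
    rw [sq_eq, hzpow, hform, if_pos rfl]
    congr 1
    simp only [s, sType, ESIso.qType, blk]
    cases b <;> by_cases h : (i : ℕ) + 1 = n <;> simp [h]
  · intro i
    rw [sq_eq, hzpow, hform, if_pos rfl]
    congr 1
    simp only [s, sType, ESIso.qType, blk]
    cases b <;> by_cases h : (i : ℕ) + 1 = n <;> simp [h]

theorem count_model (b : Bool) (n : ℕ) (hn : 1 ≤ n) :
    Nat.card {g : Ext (sType b n) // g ^ 2 = 1} =
      if b then 2 ^ (2 * n) - 2 ^ n else 2 ^ (2 * n) + 2 ^ n := by
  classical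
  set s := sType b n with hs
  have e : {g : Ext s // g ^ 2 = 1} ≃ {v : Vec n // form s v v = 0} × ZMod 2 :=
    { toFun := fun g => (⟨g.1.v, by simpa [sq_eq] using congrArg Ext.a g.2⟩, g.1.a)
      invFun := fun q => ⟨⟨q.1.1, q.2⟩, by
        rw [sq_eq]
        ext : 1
        · rfl
        · exact q.1.2⟩
      left_inv := fun g => rfl
      right_inv := fun q => rfl }
  rw [Nat.card_congr e, Nat.card_prod, Nat.card_eq_fintype_card, Nat.card_eq_fintype_card, ZMod.card,
    Fintype.card_subtype]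
  have h1 := sum_sgn s
  have h2 : ∑ v : Vec n, sgn (form s v v) =
      ((Finset.univ.filter fun v : Vec n => form s v v = 0).card : ℤ) -
        ((Finset.univ.filter fun v : Vec n => ¬ form s v v = 0).card : ℤ) := by
    simp only [sgn, Finset.sum_ite, Finset.sum_const, nsmul_eq_mul]
    ring
  have h3 := Finset.card_filter_add_card_filter_not (s := (Finset.univ : Finset (Vec n)))
    (fun v => form s v v = 0)
  rw [Finset.card_univ, Fintype.card_fun, Fintype.card_prod, ZMod.card, Fintype.card_fin] at h3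
  have h4 : (∏ i, (if s i then -2 else 2 : ℤ)) = if b then -(2 ^ n : ℤ) else 2 ^ n := by
    obtain ⟨m, rfl⟩ : ∃ m, n = m + 1 := ⟨n - 1, by omega⟩
    rw [Fin.prod_univ_castSucc]
    have hc : ∀ i : Fin m, s i.castSucc = false := fun i => by
      simp [hs, sType, ne_of_lt i.isLt]
    simp only [hc, Bool.false_eq_true, if_false, Finset.prod_const, Finset.card_univ, Fintype.card_fin]
    cases b <;> simp [hs, sType, pow_succ]
  rw [h4] at h1
  rw [h2] at h1
  have h5 : (2 * 2 : ℕ) ^ n = 2 ^ (2 * n) := by rw [pow_mul]; norm_num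
  rw [h5] at h3
  have h6 : ((2 ^ n : ℕ) : ℤ) = 2 ^ n := by norm_num
  have h7 : (2 : ℕ) ^ n ≤ 2 ^ (2 * n) := Nat.pow_le_pow_right two_pos (by omega)
  cases b
  · simp only [Bool.false_eq_true, if_false] at h1 ⊢
    omega
  · simp only [if_true] at h1 ⊢
    omega

/-- Every extraspecial 2-group is one of the models. -/
theorem exists_model (E : Type*) [Group E] [Finite E] (hE : Cfsg.IsExtraspecial 2 E) :
    ∃ (b : Bool) (n : ℕ), 1 ≤ n ∧ Nat.card E = 2 ^ (2 * n + 1) ∧ Nonempty (E ≃* Ext (sType b n)) := by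
  haveI := Fact.mk Nat.prime_two
  obtain ⟨z, hS, hN⟩ := ESIso.setting_of_extraspecial hE
  obtain ⟨b, n, x, y, hB⟩ := hS.exists_basis_two ⊤ hN
  have hcard : Nat.card E = 2 ^ (2 * n + 1) := Subgroup.card_top.symm.trans hB.card
  have hn : 1 ≤ n := by
    by_contra h
    obtain rfl : n = 0 := by omega
    have htop : Subgroup.center E = ⊤ := Subgroup.eq_top_of_card_eq _ (by rw [hE.2, hcard]; norm_num)
    have h1 := FGS3.IsExtraspecial_commutator hE
    rw [htop] at h1
    haveI : Nontrivial E := Finite.one_lt_card_iff_nontrivial.1 (by rw [hcard]; norm_num)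
    haveI : Group.IsNilpotent E := (IsPGroup.of_card hcard).isNilpotent
    exact (Group.IsSolvable.commutator_lt_top_of_nontrivial E).ne h1
  obtain ⟨x', y', hB'⟩ := model_basis b n
  refine ⟨b, n, hn, hcard, ESIso.nonempty_iso hS.hz ?_ ?_ ?_ hB hB'⟩
  · exact mem_center_iff'.2 rfl
  · rw [← hS.ord]; exact pow_orderOf_eq_one z
  · rw [sq_eq, form_zero_left]; rfl

theorem card_congr_sq {E F : Type*} [Group E] [Group F] (e : E ≃* F) :
    Nat.card {x : E // x ^ 2 = 1} = Nat.card {x : F // x ^ 2 = 1} := by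
  refine Nat.card_congr (Equiv.subtypeEquiv e.toEquiv fun x => ?_)
  show x ^ 2 = 1 ↔ e x ^ 2 = 1
  rw [← map_pow, MulEquiv.map_eq_one_iff]

end Cfsg.Agent.FGS4.ExtraTwo
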