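/-
Chains of `p`-length two for groups whose maximal subgroups are `p`-nilpotent or of prime index.
-/
import Cfsg.Agent.Core.PiSeparable
import Cfsg.Agent.Core.MinimalNormal
import Mathlib.GroupTheory.SchurZassenhaus
import Mathlib.GroupTheory.SpecificGroups.Cyclic

set_option autoImplicit false
set_option linter.style.haveILetI false

namespace Cfsg.Agent.FGS4.PLengthTwo

universe u

open scoped Pointwise

/-- The hypothesis on maximal subgroups. -/
def MaxHyp (p : ℕ) (G : Type u) [Group G] : Prop :=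
  ∀ M : Subgroup G, IsCoatom M →
    (∃ K : Subgroup ↥M, K.Normal ∧ ¬ p ∣ Nat.card K ∧ ∃ k : ℕ, K.index = p ^ k) ∨ (M.index).Prime

/-- A chain with factors `p'`, `p`, `p'`, `p`. -/
def HasChain (p : ℕ) (G : Type u) [Group G] : Prop :=
  ∃ A B C : Subgroup G, A.Normal ∧ B.Normal ∧ C.Normal ∧ A ≤ B ∧ B ≤ C ∧ ¬ p ∣ Nat.card A ∧
    (∃ k : ℕ, A.relIndex B = p ^ k) ∧ ¬ p ∣ B.relIndex C ∧ ∃ k : ℕ, C.index = p ^ k

variable {p : ℕ} [hp : Fact p.Prime]

theorem isCoatom_comap {G H : Type*} [Group G] [Group H] {f : G →* H} (hf : Function.Surjective f)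
    {M : Subgroup H} (hM : IsCoatom M) : IsCoatom (M.comap f) := by
  refine ⟨fun h => hM.1 ?_, fun L hL => ?_⟩
  · rw [← Subgroup.map_comap_eq_self_of_surjective hf M, h, Subgroup.map_top_of_surjective f hf]
  · have hk : f.ker ≤ L := le_trans (fun x hx => by
      show f x ∈ M
      rw [MonoidHom.mem_ker.mp hx]; exact one_mem M) hL.le
    have h1 : L.map f = ⊤ := hM.2 _ (by
      refine lt_of_le_of_ne ((Subgroup.map_comap_eq_self_of_surjective hf M).symm.le.trans
        (Subgroup.map_mono hL.le)) fun h => hL.ne ?_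
      rw [h, Subgroup.comap_map_eq_self hk])
    rw [← Subgroup.comap_map_eq_self hk, h1, Subgroup.comap_top]

theorem pow_of_dvd {n k : ℕ} (h : n ∣ p ^ k) : ∃ i, n = p ^ i := by
  obtain ⟨i, -, hi⟩ := (Nat.dvd_prime_pow hp.out).mp h
  exact ⟨i, hi⟩

theorem MaxHyp.quotient {G : Type u} [Group G] [Finite G] (h : MaxHyp p G) (N : Subgroup G)
    [N.Normal] : MaxHyp p (G ⧸ N) := by
  intro M hM
  have hs := QuotientGroup.mk'_surjective N
  rcases h (M.comap (QuotientGroup.mk' N)) (isCoatom_comap hs hM) with ⟨K, hK, hKp, k, hk⟩ | hq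
  · let g : ↥(M.comap (QuotientGroup.mk' N)) →* M := (QuotientGroup.mk' N).subgroupComap M
    have hg : Function.Surjective g := by
      rintro ⟨y, hy⟩
      obtain ⟨x, rfl⟩ := hs y
      exact ⟨⟨x, hy⟩, rfl⟩
    exact Or.inl ⟨K.map g, hK.map g hg, fun hd => hKp (hd.trans (Subgroup.card_map_dvd K g)),
      pow_of_dvd (hk ▸ Subgroup.index_map_dvd (f := g) K hg)⟩
  · exact Or.inr (by rwa [Subgroup.index_comap_of_surjective M hs] at hq)

theorem HasChain.congr_comap {G : Type u} [Group G] [Finite G] (N : Subgroup G) [N.Normal]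
    (h : HasChain p (G ⧸ N)) :
    ∃ A B C : Subgroup G, A.Normal ∧ B.Normal ∧ C.Normal ∧ N ≤ A ∧ A ≤ B ∧ B ≤ C ∧
      ¬ p ∣ N.relIndex A ∧ (∃ k : ℕ, A.relIndex B = p ^ k) ∧ ¬ p ∣ B.relIndex C ∧
      ∃ k : ℕ, C.index = p ^ k := by
  obtain ⟨A, B, C, hA, hB, hC, hAB, hBC, hA', ⟨k, hk⟩, hBC', l, hl⟩ := h
  let π := QuotientGroup.mk' N
  have hs : Function.Surjective π := QuotientGroup.mk'_surjective N
  refine ⟨A.comap π, B.comap π, C.comap π, hA.comap π, hB.comap π, hC.comap π, ?_,
    Subgroup.comap_mono hAB, Subgroup.comap_mono hBC, ?_, ⟨k, ?_⟩, ?_, ⟨l, ?_⟩⟩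
  · intro x hx
    show π x ∈ A
    rw [show π x = 1 from (QuotientGroup.eq_one_iff x).mpr hx]; exact one_mem A
  · have e : N.relIndex (A.comap π) = Nat.card A := by
      have h1 : (⊥ : Subgroup (G ⧸ N)).comap π = N := by
        rw [MonoidHom.comap_bot, QuotientGroup.ker_mk']
      have h2 := Subgroup.relIndex_comap (⊥ : Subgroup (G ⧸ N)) π (A.comap π)
      rw [h1, Subgroup.map_comap_eq_self_of_surjective hs, Subgroup.relIndex_bot_left] at h2
      exact h2
    rwa [e]
  · rw [Subgroup.relIndex_comap, Subgroup.map_comap_eq_self_of_surjective hs, hk]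
  · rwa [Subgroup.relIndex_comap, Subgroup.map_comap_eq_self_of_surjective hs]
  · rw [Subgroup.index_comap_of_surjective _ hs, hl]

theorem relIndex_inf_dvd {G : Type u} [Group G] {A₁ A₂ B₁ B₂ : Subgroup G} [A₁.Normal] [A₂.Normal] :
    (A₁ ⊓ A₂).relIndex (B₁ ⊓ B₂) ∣ A₁.relIndex B₁ * A₂.relIndex B₂ := by
  rw [← Subgroup.inf_relIndex_right (A₁ ⊓ A₂) (B₁ ⊓ B₂),
    ← Subgroup.relIndex_mul_relIndex _ (A₁ ⊓ (B₁ ⊓ B₂)) _
      (le_inf (inf_le_left.trans inf_le_left) inf_le_right) inf_le_right, mul_comm]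
  refine Nat.mul_dvd_mul ?_ ?_
  · rw [Subgroup.inf_relIndex_right]
    exact Core.relIndex_dvd_of_le_right_of_normal inf_le_left
  · rw [show A₁ ⊓ A₂ ⊓ (B₁ ⊓ B₂) = A₂ ⊓ (A₁ ⊓ (B₁ ⊓ B₂)) by
      simp only [inf_assoc, inf_left_comm, inf_comm], Subgroup.inf_relIndex_right]
    exact Core.relIndex_dvd_of_le_right_of_normal (inf_le_right.trans inf_le_right)

omit hp in
theorem index_inf_dvd {G : Type u} [Group G] {A₁ A₂ : Subgroup G} [A₁.Normal] [A₂.Normal] :
    (A₁ ⊓ A₂).index ∣ A₁.index * A₂.index := by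
  have := relIndex_inf_dvd (A₁ := A₁) (A₂ := A₂) (B₁ := ⊤) (B₂ := ⊤)
  simpa using this

theorem exists_minNormal_type {G : Type u} [Group G] [Finite G] [Nontrivial G]
    (hG : Cfsg.IsPSolvable p G) {N : Subgroup G} (hN : Core.IsMinNormal N) :
    IsPGroup p N ∨ ¬ p ∣ Nat.card N := by
  obtain ⟨n, H, h0, hlast, hmono, hnor, hfac⟩ := hG
  classical
  haveI := hN.1
  have hex : ∃ i : Fin (n + 1), N ≤ H i := ⟨Fin.last n, by rw [hlast]; exact le_top⟩
  obtain ⟨i, hi, hmin⟩ := Finset.exists_min_image (Finset.univ.filter fun i => N ≤ H i) (fun i => (i : ℕ))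
    ⟨hex.choose, by simpa using hex.choose_spec⟩
  rw [Finset.mem_filter] at hi
  obtain ⟨j, rfl⟩ : ∃ j : Fin n, i = j.succ := by
    refine Fin.eq_zero_or_eq_succ i |>.resolve_left ?_
    rintro rfl
    rw [h0, le_bot_iff] at hi
    exact hN.2.1 hi.2
  have hnot : ¬ N ≤ H j.castSucc := fun h => by
    have := hmin j.castSucc (by simpa using h)
    simp at this
  haveI := hnor j.castSucc
  have hbot : N ⊓ H j.castSucc = ⊥ := (hN.inf_eq_bot_or_le (hnor _)).resolve_right hnot
  have hd : Nat.card N ∣ (H j.castSucc).relIndex (H j.succ) := by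
    have h1 : (H j.castSucc).relIndex N = Nat.card N := by
      rw [← Subgroup.inf_relIndex_right, inf_comm, hbot, Subgroup.relIndex_bot_left]
    rw [← h1]
    exact Core.relIndex_dvd_of_le_right_of_normal hi.2
  rcases hfac j with ⟨m, hm⟩ | hc
  · rw [hm] at hd
    obtain ⟨i, hi⟩ := pow_of_dvd hd
    exact Or.inl (IsPGroup.of_card hi)
  · refine Or.inr fun h => hp.out.ne_one ?_
    exact Nat.eq_one_of_dvd_coprimes hc (h.trans hd) dvd_rfl

/-- The main induction. -/
theorem hasChain_aux : ∀ (n : ℕ) (G : Type u) [Group G] [Finite G], Nat.card G = n →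
    Cfsg.IsPSolvable p G → MaxHyp p G → HasChain p G := by
  intro n
  induction n using Nat.strong_induction_on with
  | _ n ih =>
    intro G _ _ hn hsol hmax
    classical
    rcases subsingleton_or_nontrivial G with hs | hnt
    · exact ⟨⊥, ⊥, ⊥, inferInstance, inferInstance, inferInstance, le_rfl, le_rfl,
        by rw [Subgroup.card_bot]; exact hp.out.not_dvd_one, ⟨0, by simp⟩,
        by simpa using hp.out.ne_one, ⟨0, by rw [Subgroup.index_bot, pow_zero, Nat.card_unique]⟩⟩
    have hq : ∀ N : Subgroup G, Core.IsMinNormal N → ∃ A B C : Subgroup G, A.Normal ∧ B.Normal ∧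
        C.Normal ∧ N ≤ A ∧ A ≤ B ∧ B ≤ C ∧ ¬ p ∣ N.relIndex A ∧ (∃ k : ℕ, A.relIndex B = p ^ k) ∧
        ¬ p ∣ B.relIndex C ∧ ∃ k : ℕ, C.index = p ^ k := by
      intro N hN
      haveI := hN.1
      refine HasChain.congr_comap N (ih _ ?_ (G ⧸ N) rfl (Core.isPSolvable_quotient hsol N)
        (hmax.quotient N))
      rw [← hn, Subgroup.card_eq_card_quotient_mul_card_subgroup N]
      have : 1 < Nat.card N := Finite.one_lt_card_iff_nontrivial.mpr
        ((Subgroup.nontrivial_iff_ne_bot N).mpr hN.2.1)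
      exact lt_mul_of_one_lt_right Nat.card_pos this
    obtain ⟨N, hN⟩ := Core.exists_isMinNormal (G := G)
    obtain ⟨A, B, C, hA, hB, hC, hNA, hAB, hBC, hNA', hAB', hBC', hC'⟩ := hq N hN
    haveI := hN.1
    haveI := hA
    have hcardA : Nat.card A = Nat.card N * N.relIndex A := by
      rw [← Subgroup.relIndex_bot_left N, ← Subgroup.relIndex_bot_left A,
        Subgroup.relIndex_mul_relIndex ⊥ N A bot_le hNA]
    rcases exists_minNormal_type hsol hN with hNp | hNp'
    swap
    · refine ⟨A, B, C, hA, hB, hC, hAB, hBC, ?_, hAB', hBC', hC'⟩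
      rw [hcardA]
      exact fun h => (hp.out.dvd_mul.mp h).elim hNp' hNA'
    -- two minimal normal subgroups
    by_cases hU : ∀ N₂ : Subgroup G, Core.IsMinNormal N₂ → N₂ = N
    swap
    · push Not at hU
      obtain ⟨N₂, hN₂, hne⟩ := hU
      obtain ⟨A₂, B₂, C₂, hA₂, hB₂, hC₂, hNA₂, hAB₂, hBC₂, hNA₂', ⟨k₂, hk₂⟩, hBC₂', ⟨l₂, hl₂⟩⟩ := hq N₂ hN₂
      obtain ⟨k, hk⟩ := hAB'
      obtain ⟨l, hl⟩ := hC'
      haveI := hN₂.1
      haveI := hB
      haveI := hC
      haveI := hA₂
      haveI := hB₂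
      haveI := hC₂
      have hbot : N ⊓ N₂ = ⊥ := by
        rcases hN.inf_eq_bot_or_le hN₂.1 with h | h
        · exact h
        · rcases hN₂.2.2 N hN.1 h with h' | h'
          · exact absurd h' hN.2.1
          · exact absurd h'.symm hne
      refine ⟨A ⊓ A₂, B ⊓ B₂, C ⊓ C₂, inferInstance, inferInstance, inferInstance,
        inf_le_inf hAB hAB₂, inf_le_inf hBC hBC₂, fun h => ?_,
        pow_of_dvd (k := k + k₂) ((relIndex_inf_dvd).trans (by rw [hk, hk₂, ← pow_add])),
        fun h => (hp.out.dvd_mul.mp (h.trans relIndex_inf_dvd)).elim hBC' hBC₂',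
        pow_of_dvd (k := l + l₂) (index_inf_dvd.trans (by rw [hl, hl₂, ← pow_add]))⟩
      have h2 : (N ⊓ N₂).relIndex (A ⊓ A₂) = Nat.card ↥(A ⊓ A₂) := by
        rw [hbot, Subgroup.relIndex_bot_left]
      rw [← h2] at h
      exact (hp.out.dvd_mul.mp (h.trans relIndex_inf_dvd)).elim hNA' hNA₂'
    by_cases hAN : A = N
    · haveI := hB
      obtain ⟨k, hk⟩ := hAB'
      obtain ⟨j, hj⟩ := IsPGroup.iff_card.mp hNp
      refine ⟨⊥, B, C, inferInstance, hB, hC, bot_le, hBC,
        by rw [Subgroup.card_bot]; exact hp.out.not_dvd_one, ⟨j + k, ?_⟩, hBC', hC'⟩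
      rw [← Subgroup.relIndex_mul_relIndex ⊥ N B bot_le (hNA.trans hAB), Subgroup.relIndex_bot_left,
        hj, pow_add]
      rw [hAN] at hk
      rw [hk]
    -- a complement of `N` in `A`
    haveI : (N.subgroupOf A).Normal := inferInstance
    have hcop : Nat.Coprime (Nat.card (N.subgroupOf A)) (N.subgroupOf A).index := by
      obtain ⟨j, hj⟩ := IsPGroup.iff_card.mp hNp
      rw [Nat.card_congr (Subgroup.subgroupOfEquivOfLe hNA).toEquiv, hj]
      exact Nat.Coprime.pow_left _ (hp.out.coprime_iff_not_dvd.mpr hNA')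
    obtain ⟨K, hK⟩ := Subgroup.exists_right_complement'_of_coprime hcop
    set K' := K.map A.subtype with hK'
    have hK'p : ¬ p ∣ Nat.card K' := by
      rw [Subgroup.card_map_of_injective A.subtype_injective, ← hK.symm.index_eq_card]
      exact hNA'
    have hK'bot : K' ≠ ⊥ := fun h => hAN (le_antisymm (fun a ha => by
      have hKb : K = ⊥ := (Subgroup.map_eq_bot_iff_of_injective K A.subtype_injective).mp h
      rw [hKb] at hK
      have := Subgroup.isComplement'_bot_right.mp hK
      exact this.symm.le (Subgroup.mem_top (⟨a, ha⟩ : A))) hNA)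
    have hNsol : Group.IsSolvable N := haveI := hNp.isNilpotent; inferInstance
    haveI : IsMulCommutative N := hN.isMulCommutative hNsol
    set U := Subgroup.normalizer (K' : Set G) with hU'
    have hUN : U ≠ ⊤ := by
      intro h
      haveI hKn : K'.Normal := Subgroup.normalizer_eq_top_iff.mp h
      obtain ⟨N₂, hN₂, hle⟩ := Core.exists_isMinNormal_le hKn hK'bot
      rw [hU N₂ hN₂] at hle
      obtain ⟨j, hj⟩ := IsPGroup.iff_card.mp hNp
      have h1 : p ∣ Nat.card N := by
        rw [hj]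
        refine dvd_pow_self p fun h0 => hN.2.1 ?_
        rw [h0, pow_zero] at hj
        exact Subgroup.card_eq_one.mp hj
      exact hK'p (h1.trans (Subgroup.card_dvd_of_le hle))
    have hfr : N ⊔ U = ⊤ := by
      rw [eq_top_iff]
      intro g _
      have hAA : MulAut.conj g • A = A := hA.conj_smul_eq_self g
      -- the conjugate complement
      let cg : A ≃* A := (MulEquiv.subgroupMap (MulAut.conj g) A).trans (MulEquiv.subgroupCongr hAA)
      have hK2 : Subgroup.IsComplement' (N.subgroupOf A) (K.map cg.toMonoidHom) := by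
        refine Subgroup.isComplement'_of_coprime ?_ ?_
        · rw [Subgroup.card_map_of_injective cg.injective, hK.card_mul]
        · rw [Subgroup.card_map_of_injective cg.injective, ← hK.symm.index_eq_card]
          exact hcop
      obtain ⟨⟨x, hxA⟩, hx, hxe⟩ := Core.exists_conj_eq_of_isComplement' hcop
        (Or.inl (haveI := hNsol; Group.isSolvable_of_isSolvable_injective
          (f := (Subgroup.subgroupOfEquivOfLe hNA).toMonoidHom)
          (Subgroup.subgroupOfEquivOfLe hNA).injective)) hK hK2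
      have hxU : x⁻¹ * g ∈ U := by
        rw [hU', Subgroup.mem_normalizer_iff_map_conj_eq]
        refine Subgroup.eq_of_le_of_card_ge ?_ (Subgroup.card_map_of_injective (MulAut.conj _).injective).ge
        rintro _ ⟨_, ⟨k, hk, rfl⟩, rfl⟩
        have hmem : cg k ∈ MulAut.conj (⟨x, hxA⟩ : A) • K := hxe ▸ ⟨k, hk, rfl⟩
        rw [Subgroup.mem_pointwise_smul_iff_inv_smul_mem] at hmem
        refine ⟨_, hmem, ?_⟩
        simp [cg, MulAut.smul_def, mul_assoc]
        show (g * (k : G) * g⁻¹) * x = g * ((k : G) * (g⁻¹ * x))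
        simp only [mul_assoc]
      have := Subgroup.mul_mem_sup (show x ∈ N from hx) hxU
      rwa [mul_inv_cancel_left] at this
    obtain ⟨M, hM, hUM⟩ := (eq_top_or_exists_le_coatom U).resolve_left hUN
    have hNM : N ⊔ M = ⊤ := top_le_iff.mp (hfr ▸ sup_le_sup_left hUM N)
    have hMN : N ⊓ M = ⊥ := by
      have hn : (N ⊓ M).Normal := by
        rw [← Subgroup.normalizer_eq_top_iff, eq_top_iff, ← hNM, sup_le_iff]
        constructor
        · intro a ha
          refine Subgroup.mem_normalizer_fintype fun b hb => ?_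
          rw [show a * b * a⁻¹ = b by
            have := congrArg Subtype.val (mul_comm' (⟨a, ha⟩ : N) ⟨b, hb.1⟩)
            rw [show a * b = b * a from this, mul_inv_cancel_right]]
          exact hb
        · intro a ha
          refine Subgroup.mem_normalizer_fintype fun b hb => ⟨hN.1.conj_mem b hb.1 a, ?_⟩
          exact M.mul_mem (M.mul_mem ha hb.2) (M.inv_mem ha)
      rcases hN.2.2 _ hn inf_le_left with h | h
      · exact h
      · exact absurd (top_le_iff.mp (hNM ▸ sup_le (inf_eq_left.mp h) le_rfl)) hM.1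
    have hcomp : Subgroup.IsComplement' M N :=
      (Subgroup.isComplement'_of_disjoint_and_mul_eq_univ (disjoint_iff.mpr hMN) (by
        rw [← Subgroup.normal_mul, hNM, Subgroup.coe_top])).symm
    obtain ⟨j, hj⟩ := IsPGroup.iff_card.mp hNp
    rcases hmax M hM with ⟨L, hL, hLp, k, hk⟩ | hprime
    · have hLM : L.map M.subtype ≤ M := Subgroup.map_subtype_le L
      have hn : (N ⊔ L.map M.subtype).Normal := by
        rw [← Subgroup.normalizer_eq_top_iff, eq_top_iff, ← hNM, sup_le_iff]
        refine ⟨le_sup_left.trans Subgroup.le_normalizer, fun a ha => ?_⟩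
        refine Subgroup.mem_normalizer_fintype fun b hb => ?_
        have hle : N ⊔ L.map M.subtype ≤ (N ⊔ L.map M.subtype).comap (MulAut.conj a).toMonoidHom := by
          rw [sup_le_iff]
          refine ⟨fun c hc => Subgroup.mem_sup_left (hN.1.conj_mem c hc a), ?_⟩
          rintro _ ⟨c, hc, rfl⟩
          exact Subgroup.mem_sup_right ⟨⟨a, ha⟩ * c * ⟨a, ha⟩⁻¹, hL.conj_mem c hc _, rfl⟩
        exact hle hb
      have hdisj : N ⊓ L.map M.subtype = ⊥ := le_bot_iff.mp (hMN ▸ inf_le_inf_left N hLM)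
      have hrel : N.relIndex (N ⊔ L.map M.subtype) = Nat.card L := by
        rw [sup_comm, Subgroup.relIndex_sup_right, ← Subgroup.inf_relIndex_right, hdisj,
          Subgroup.relIndex_bot_left, Subgroup.card_map_of_injective M.subtype_injective]
      refine ⟨⊥, N, N ⊔ L.map M.subtype, inferInstance, hN.1, hn, bot_le, le_sup_left,
        by rw [Subgroup.card_bot]; exact hp.out.not_dvd_one,
        ⟨j, by rw [Subgroup.relIndex_bot_left, hj]⟩, by rw [hrel]; exact hLp, k, ?_⟩
      have h1 := Subgroup.relIndex_mul_index (show N ≤ N ⊔ L.map M.subtype from le_sup_left)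
      rw [hrel, hcomp.index_eq_card, ← Subgroup.card_mul_index L, hk] at h1
      exact Nat.eq_of_mul_eq_mul_left Nat.card_pos h1
    · refine ⟨⊥, N, ⊤, inferInstance, hN.1, inferInstance, bot_le, le_top,
        by rw [Subgroup.card_bot]; exact hp.out.not_dvd_one,
        ⟨j, by rw [Subgroup.relIndex_bot_left, hj]⟩, ?_, ⟨0, by simp⟩⟩
      have hNcard : Nat.card N = p := by
        rw [hcomp.symm.index_eq_card, hj] at hprime
        rw [hj, (Nat.Prime.eq_one_of_pow hprime), pow_one]
      rw [Subgroup.relIndex_top_right, hcomp.index_eq_card]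
      let θ : M →* MulAut N := (MulAut.conjNormal (H := N)).comp M.subtype
      have hinj : Function.Injective θ := by
        rw [← MonoidHom.ker_eq_bot_iff]
        set C0 := M ⊓ Subgroup.centralizer (N : Set G) with hC0
        have hC0n : C0.Normal := by
          rw [← Subgroup.normalizer_eq_top_iff, eq_top_iff, ← hNM, sup_le_iff]
          constructor
          · intro a ha
            refine Subgroup.mem_normalizer_fintype fun b hb => ?_
            rw [show a * b * a⁻¹ = b by
              rw [hb.2 a ha, mul_inv_cancel_right]]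
            exact hb
          · intro a ha
            refine Subgroup.mem_normalizer_fintype fun b hb =>
              ⟨M.mul_mem (M.mul_mem ha hb.1) (M.inv_mem ha), ?_⟩
            exact (inferInstance : (Subgroup.centralizer (N : Set G)).Normal).conj_mem b hb.2 a
        have hC0b : C0 = ⊥ := by
          by_contra hne
          obtain ⟨N₂, hN₂, hle⟩ := Core.exists_isMinNormal_le hC0n hne
          rw [hU N₂ hN₂] at hle
          exact hN.2.1 (le_bot_iff.mp (hMN ▸ le_inf le_rfl (hle.trans inf_le_left)))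
        rw [Subgroup.eq_bot_iff_forall]
        intro m hm
        have : (m : G) ∈ C0 := ⟨m.2, fun a ha => by
          have h1 := congrArg Subtype.val (MulEquiv.congr_fun (MonoidHom.mem_ker.mp hm) ⟨a, ha⟩)
          exact (mul_inv_eq_iff_eq_mul.mp h1).symm⟩
        rw [hC0b, Subgroup.mem_bot] at this
        exact Subtype.ext this
      haveI : IsCyclic N := isCyclic_of_prime_card hNcard
      have hd : Nat.card M ∣ p - 1 := by
        refine (Subgroup.card_dvd_of_injective θ hinj).trans (dvd_of_eq ?_)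
        rw [IsCyclic.card_mulAut, hNcard, Nat.totient_prime hp.out]
      intro h
      have := Nat.le_of_dvd (by have := hp.out.two_le; omega) (h.trans hd)
      have := hp.out.two_le
      omega

theorem hasChain {G : Type u} [Group G] [Finite G] (hsol : Cfsg.IsPSolvable p G) (hmax : MaxHyp p G) :
    HasChain p G :=
  hasChain_aux _ G rfl hsol hmax

end Cfsg.Agent.FGS4.PLengthTwo
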