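/-
Abelian groups with an anticommuting pair of automorphisms squaring to inversion have square order;
consequently the Frobenius kernel has square order when the complement has a quaternion Sylow subgroup.
-/
import Mathlib

set_option autoImplicit false
set_option linter.style.haveILetI false

namespace Cfsg.Agent.FGS4.Quat

open Subgroup

universe u

theorem even_finrank {K V : Type*} [Field K] [AddCommGroup V] [Module K V] [FiniteDimensional K V]
    (hK : (-1 : K) ≠ 1) (I J : V →ₗ[K] V) (hI : ∀ x, I (I x) = -x) (hJ : ∀ x, J (J x) = -x)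
    (hIJ : ∀ x, I (J x) = -J (I x)) : Even (Module.finrank K V) := by
  have hII : I ∘ₗ I = (-1 : K) • LinearMap.id := LinearMap.ext fun x => by simp [hI]
  have hJJ : J ∘ₗ J = (-1 : K) • LinearMap.id := LinearMap.ext fun x => by simp [hJ]
  have hij : I ∘ₗ J = (-1 : K) • (J ∘ₗ I) := LinearMap.ext fun x => by simp [hIJ]
  set d := Module.finrank K V
  have e1 := congrArg LinearMap.det hII
  have e2 := congrArg LinearMap.det hJJ
  have e3 := congrArg LinearMap.det hij
  rw [LinearMap.det_comp, LinearMap.det_smul, LinearMap.det_id, mul_one] at e1 e2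
  rw [LinearMap.det_comp, LinearMap.det_smul, LinearMap.det_comp, mul_comm (LinearMap.det J)] at e3
  have hne : (-1 : K) ^ d ≠ 0 := pow_ne_zero _ (neg_ne_zero.mpr one_ne_zero)
  have hI0 : LinearMap.det I * LinearMap.det J ≠ 0 := mul_ne_zero
    (fun h => hne (by rw [← e1, h, mul_zero])) (fun h => hne (by rw [← e2, h, mul_zero]))
  have hd1 : (-1 : K) ^ d = 1 := mul_right_cancel₀ hI0 (by rw [← e3, one_mul])
  by_contra hodd
  rw [Nat.not_even_iff_odd] at hodd
  rw [hodd.neg_one_pow] at hd1
  exact hK hd1

theorem isSquare_card_of_exponent (A : Type*) [AddCommGroup A] [Finite A] (p : ℕ) [hp : Fact p.Prime]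
    (h2 : p ≠ 2) [Module (ZMod p) A] (I J : A →+ A) (hI : ∀ x, I (I x) = -x) (hJ : ∀ x, J (J x) = -x)
    (hIJ : ∀ x, I (J x) = -J (I x)) : IsSquare (Nat.card A) := by
  haveI : Fact (2 < p) := ⟨by have := hp.out.two_le; omega⟩
  obtain ⟨m, hm⟩ := even_finrank (ZMod.neg_one_ne_one (n := p)) (I.toZModLinearMap p)
    (J.toZModLinearMap p) hI hJ hIJ
  exact ⟨p ^ m, by rw [Module.natCard_eq_pow_finrank (K := ZMod p), Nat.card_zmod, hm, pow_add]⟩

theorem isSquare_card : ∀ (n : ℕ) (A : Type u) [CommGroup A] [Finite A] (i j : MulAut A),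
    Nat.card A = n → Odd n → (∀ x, i (i x) = x⁻¹) → (∀ x, j (j x) = x⁻¹) →
      (∀ x, i (j x) = (j (i x))⁻¹) → IsSquare n := by
  intro n
  induction n using Nat.strong_induction_on with
  | _ n ih =>
    intro A _ _ i j hn hodd hi hj hij
    rcases eq_or_ne n 1 with rfl | h1
    · exact IsSquare.one
    obtain ⟨p, hp, hpd⟩ := Nat.exists_prime_and_dvd h1
    haveI := Fact.mk hp
    have h2 : p ≠ 2 := fun e => hodd.not_two_dvd_nat (e ▸ hpd)
    set M : Subgroup A := (powMonoidHom p).ker with hM
    have hmem : ∀ x, x ∈ M ↔ x ^ p = 1 := fun x => Iff.rfl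
    have hinv : ∀ (f : MulAut A) (x : A), f x ∈ M ↔ x ∈ M := fun f x => by
      rw [hmem, hmem, ← map_pow, MulEquiv.map_eq_one_iff]
    let res : MulAut A → MulAut M := fun f =>
      { toFun := fun x => ⟨f x, (hinv f x).mpr x.2⟩
        invFun := fun x => ⟨f.symm x, (hinv f.symm x).mpr x.2⟩
        left_inv := fun x => Subtype.ext (f.symm_apply_apply _)
        right_inv := fun x => Subtype.ext (f.apply_symm_apply _)
        map_mul' := fun x y => Subtype.ext (map_mul f _ _) }
    letI : Module (ZMod p) (Additive M) := AddCommGroup.zmodModule fun x : Additive M =>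
      congrArg Additive.ofMul (Subtype.ext ((hmem _).mp x.toMul.2) : x.toMul ^ p = 1)
    have hMsq : IsSquare (Nat.card M) := by
      rw [Nat.card_congr (Additive.ofMul : M ≃ Additive M)]
      exact isSquare_card_of_exponent (Additive M) p h2
        (MonoidHom.toAdditive (res i).toMonoidHom) (MonoidHom.toAdditive (res j).toMonoidHom)
        (fun x => congrArg Additive.ofMul (Subtype.ext (hi x.toMul.1) : (res i) ((res i) x.toMul) = x.toMul⁻¹))
        (fun x => congrArg Additive.ofMul (Subtype.ext (hj x.toMul.1) : (res j) ((res j) x.toMul) = x.toMul⁻¹))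
        (fun x => congrArg Additive.ofMul (Subtype.ext (hij x.toMul.1) : (res i) ((res j) x.toMul) = ((res j) ((res i) x.toMul))⁻¹))
    have hmap : ∀ f : MulAut A, M.map (f : A →* A) = M := fun f => by
      ext x
      refine ⟨?_, fun hx => ⟨f.symm x, (hinv f.symm x).mpr hx, f.apply_symm_apply x⟩⟩
      rintro ⟨y, hy, rfl⟩
      exact (hinv f y).mpr hy
    have hcard := Subgroup.card_eq_card_quotient_mul_card_subgroup M
    have hM1 : 1 < Nat.card M := by
      obtain ⟨x, hx⟩ := exists_prime_orderOf_dvd_card' (G := A) p (hn ▸ hpd)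
      rw [one_lt_card_iff_ne_bot]
      intro hb
      have : x ∈ M := (hmem x).mpr (by rw [← hx, pow_orderOf_eq_one])
      rw [hb, mem_bot] at this
      rw [this, orderOf_one] at hx
      exact hp.ne_one hx.symm
    have hqlt : Nat.card (A ⧸ M) < n := by
      rw [← hn, hcard]; exact lt_mul_of_one_lt_right Nat.card_pos hM1
    have hqodd : Odd (Nat.card (A ⧸ M)) := Odd.of_dvd_nat hodd ⟨_, hn ▸ hcard⟩
    have := ih _ hqlt (A ⧸ M) (QuotientGroup.congr M M i (hmap i)) (QuotientGroup.congr M M j (hmap j))
      rfl hqodd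
      (fun q => QuotientGroup.induction_on q fun x => congrArg QuotientGroup.mk (hi x))
      (fun q => QuotientGroup.induction_on q fun x => congrArg QuotientGroup.mk (hj x))
      (fun q => QuotientGroup.induction_on q fun x => congrArg QuotientGroup.mk (hij x))
    rw [← hn, hcard]
    exact this.mul hMsq

end Cfsg.Agent.FGS4.Quat
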