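import Cfsg.Prelude.Def_CaseTheorems
import Cfsg.Agent.Core.Frattini
import Cfsg.Agent.Core.Cores
import Cfsg.Agent.OddLocal.NilBasics
import Cfsg.Agent.FGS4.MetacyclicComplement
import Mathlib.GroupTheory.NoncommCoprod
import Mathlib.GroupTheory.PGroup
import Mathlib.GroupTheory.Sylow

/-! # Normal subgroups with centres of order 2 in a 2-group of sectional rank at most 4 -/

set_option linter.style.haveILetI false

namespace Cfsg.Agent.FGS4.SectionalFour

open Subgroup
open scoped commutatorElement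

universe u

variable {S : Type u} [Group S]

theorem rank_of_hom {p k : ℕ} (hr : SectionalPRankLE p k S) {Y X : Type*} [Group Y] [Group X]
    (i : Y →* S) (hi : Function.Injective i) (f : Y →* X) (hf : Function.Surjective f) :
    PRankLE p k X := by
  set e : Y ≃* i.range := MonoidHom.ofInjective hi
  set f' : i.range →* X := f.comp e.symm.toMonoidHom
  have hf' : Function.Surjective f' := hf.comp e.symm.surjective
  set φ : i.range ⧸ f'.ker ≃* X := QuotientGroup.quotientKerEquivOfSurjective f' hf'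
  intro A hA hAp
  have h := hr i.range f'.ker (A.map φ.symm.toMonoidHom) ?_ ?_
  · rwa [Subgroup.card_map_of_injective φ.symm.injective] at h
  · refine ⟨⟨?_⟩⟩
    rintro ⟨_, a, ha, rfl⟩ ⟨_, b, hb, rfl⟩
    refine Subtype.ext ?_
    show φ.symm.toMonoidHom a * φ.symm.toMonoidHom b = φ.symm.toMonoidHom b * φ.symm.toMonoidHom a
    rw [← map_mul, ← map_mul, setLike_mul_comm ha hb]
  · rintro _ ⟨a, ha, rfl⟩
    rw [← map_pow, hAp a ha, map_one]

theorem sectional_subgroup {p k : ℕ} (hr : SectionalPRankLE p k S) (K : Subgroup S) :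
    SectionalPRankLE p k K := by
  intro H N _
  exact rank_of_hom hr (K.subtype.comp H.subtype) (K.subtype_injective.comp H.subtype_injective)
    (QuotientGroup.mk' N) (QuotientGroup.mk'_surjective N)

/-- `z` is the only nontrivial central element of `P`. -/
def CentreTwo (P : Subgroup S) (z : S) : Prop :=
  z ∈ P ∧ z ≠ 1 ∧ (∀ x ∈ P, z * x = x * z) ∧ ∀ w ∈ P, (∀ x ∈ P, w * x = x * w) → w = 1 ∨ w = z

theorem centreTwo_of_card [Finite S] {P : Subgroup S} (h : Nat.card (center P) = 2) :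
    ∃ z, CentreTwo P z ∧ (center P).map P.subtype = Subgroup.zpowers z := by
  haveI : IsCyclic (center P) := by
    haveI := Fact.mk Nat.prime_two
    exact isCyclic_of_prime_card h
  obtain ⟨a, b, hab, huniv⟩ := Nat.card_eq_two_iff.1 h
  obtain ⟨c, hc1⟩ : ∃ c : center P, c ≠ 1 := by
    by_contra hh
    push Not at hh
    exact hab ((hh a).trans (hh b).symm)
  refine ⟨((c : P) : S), ⟨c.1.2, fun e => hc1 (Subtype.ext (Subtype.ext e)), fun x hx => ?_, fun w hw hcomm => ?_⟩, ?_⟩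
  · exact (congrArg Subtype.val (Subgroup.mem_center_iff.1 c.2 ⟨x, hx⟩)).symm
  · have hwc : (⟨w, hw⟩ : P) ∈ center P :=
      Subgroup.mem_center_iff.2 fun x => Subtype.ext (hcomm x x.2).symm
    by_contra hne
    push Not at hne
    have h3 : ∀ y : center P, y = a ∨ y = b := fun y => by
      have : y ∈ ({a, b} : Set (center P)) := huniv ▸ Set.mem_univ y
      simpa using this
    rcases h3 1 with e1 | e1 <;> rcases h3 c with e2 | e2 <;> rcases h3 ⟨_, hwc⟩ with e3 | e3 <;>
      first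
      | exact hc1 (e2.trans e1.symm)
      | exact hne.1 (congrArg (fun y : center P => ((y : P) : S)) (e3.trans e1.symm))
      | exact hne.2 (congrArg (fun y : center P => ((y : P) : S)) (e3.trans e2.symm))
  · have hz : Subgroup.zpowers c = ⊤ := by
      refine Subgroup.eq_top_of_card_eq _ ?_
      rw [h]
      have h2 := Subgroup.card_subgroup_dvd_card (Subgroup.zpowers c)
      rw [h] at h2
      rcases (Nat.dvd_prime Nat.prime_two).1 h2 with e | e
      · exfalso
        rw [Nat.card_zpowers, orderOf_eq_one_iff] at e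
        exact hc1 e
      · exact e
    calc (center P).map P.subtype = ((⊤ : Subgroup (center P)).map (center P).subtype).map P.subtype := by
          rw [← MonoidHom.range_eq_map, Subgroup.range_subtype]
      _ = Subgroup.zpowers ((c : P) : S) := by
          rw [← hz, MonoidHom.map_zpowers, MonoidHom.map_zpowers]; rfl

theorem CentreTwo.sq {P : Subgroup S} {z : S} (h : CentreTwo P z) : z * z = 1 := by
  rcases h.2.2.2 (z * z) (P.mul_mem h.1 h.1) (fun x hx => by
      rw [mul_assoc, h.2.2.1 x hx, ← mul_assoc, h.2.2.1 x hx, mul_assoc]) with e | e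
  · exact e
  · exact absurd (by simpa using e) h.2.1

theorem CentreTwo.map {P : Subgroup S} {z : S} (h : CentreTwo P z) (g : S) :
    CentreTwo (P.map (MulAut.conj g).toMonoidHom) (g * z * g⁻¹) := by
  refine ⟨⟨z, h.1, rfl⟩, fun e => h.2.1 (by simpa using e), ?_, ?_⟩
  · rintro _ ⟨x, hx, rfl⟩
    show g * z * g⁻¹ * (g * x * g⁻¹) = g * x * g⁻¹ * (g * z * g⁻¹)
    rw [conj_mul, conj_mul, h.2.2.1 x hx]
  · rintro _ ⟨w, hw, rfl⟩ hc
    have : ∀ x ∈ P, w * x = x * w := by
      intro x hx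
      apply (MulAut.conj g).injective
      rw [map_mul, map_mul]
      exact hc _ ⟨x, hx, rfl⟩
    rcases h.2.2.2 w hw this with e | e
    · left; rw [e]; exact map_one _
    · right; rw [e]; rfl

variable [Finite S]

theorem sq_mem_frattini {U : Type*} [Group U] [Finite U] (hU : IsPGroup 2 U) (x : U) :
    x * x ∈ frattini U := by
  rw [← pow_two]
  exact FGS4.MetacyclicComplement.pow_mem_frattini hU x

theorem inf_center_ne_bot {U : Subgroup S} (hU : IsPGroup 2 U) {M : Subgroup S} (hMU : M ≤ U)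
    (hM : M ≠ ⊥) (hn : ∀ u ∈ U, ∀ m ∈ M, u * m * u⁻¹ ∈ M) :
    ∃ w ∈ M, w ≠ 1 ∧ ∀ x ∈ U, w * x = x * w := by
  haveI : (M.subgroupOf U).Normal := ⟨fun m hm u => hn u u.2 m hm⟩
  haveI : Group.IsNilpotent U := hU.isNilpotent
  have hne : M.subgroupOf U ≠ ⊥ := fun e => hM (by
    rw [Subgroup.subgroupOf_eq_bot, disjoint_iff, inf_eq_left.2 hMU] at e
    exact e)
  obtain ⟨w, hwM, hw1, hwc⟩ := OddLocal.exists_ne_one_mem_center_of_normal (M.subgroupOf U) hne
  exact ⟨(w : S), hwM, fun e => hw1 (Subtype.ext e),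
    fun x hx => (congrArg Subtype.val (Subgroup.mem_center_iff.1 hwc ⟨x, hx⟩)).symm⟩

theorem exists_sq_mem (h2 : IsPGroup 2 S) {A : Subgroup S} {x : S} (hx : x ∉ A) :
    ∃ n : ℕ, x ^ n ∉ A ∧ x ^ n * x ^ n ∈ A := by
  classical
  obtain ⟨k, hk⟩ := h2 x
  have hex : ∃ j, x ^ 2 ^ j ∈ A := ⟨k, hk.symm ▸ A.one_mem⟩
  have hpos : Nat.find hex ≠ 0 := fun e => hx (by simpa [e] using Nat.find_spec hex)
  refine ⟨2 ^ (Nat.find hex - 1), Nat.find_min hex (by omega), ?_⟩
  rw [← pow_add, show 2 ^ (Nat.find hex - 1) + 2 ^ (Nat.find hex - 1) = 2 ^ Nat.find hex by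
    rw [← two_mul, ← pow_succ', Nat.sub_add_cancel (by omega)]]
  exact Nat.find_spec hex

theorem four_le_frattini_index {P : Subgroup S} (h2 : IsPGroup 2 P) (hP : ¬ IsMulCommutative P) :
    4 ≤ (frattini P).index := by
  haveI := Fact.mk Nat.prime_two
  by_contra hlt
  obtain ⟨j, hj⟩ := IsPGroup.iff_card.mp (h2.to_quotient (frattini P))
  rw [← Subgroup.index_eq_card] at hj
  have hj1 : j ≤ 1 := by
    by_contra h
    exact hlt (hj ▸ le_trans (le_of_eq (by norm_num)) (Nat.pow_le_pow_right two_pos (by omega : 2 ≤ j)))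
  apply hP
  haveI : IsCyclic (P ⧸ frattini P) := by
    interval_cases j
    · haveI : Subsingleton (P ⧸ frattini P) :=
        (Nat.card_eq_one_iff_unique.1 (by rw [← Subgroup.index_eq_card, hj, pow_zero])).1
      infer_instance
    · exact isCyclic_of_prime_card (p := 2) (by rw [← Subgroup.index_eq_card, hj, pow_one])
  obtain ⟨q, hq⟩ := IsCyclic.exists_generator (α := P ⧸ frattini P)
  obtain ⟨x, rfl⟩ := QuotientGroup.mk'_surjective _ q
  have htop : Subgroup.zpowers x = ⊤ := by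
    refine frattini_nongenerating (eq_top_iff.2 fun y _ => ?_)
    obtain ⟨m, hm⟩ := Subgroup.mem_zpowers_iff.1 (hq (QuotientGroup.mk' _ y))
    rw [← map_zpow, QuotientGroup.mk'_eq_mk'] at hm
    obtain ⟨f, hf, rfl⟩ := hm
    exact mul_mem (mem_sup_left ⟨m, rfl⟩) (mem_sup_right hf)
  refine ⟨⟨fun a b => ?_⟩⟩
  obtain ⟨i, rfl⟩ := Subgroup.mem_zpowers_iff.1 (htop.symm ▸ Subgroup.mem_top a : a ∈ Subgroup.zpowers x)
  obtain ⟨l, rfl⟩ := Subgroup.mem_zpowers_iff.1 (htop.symm ▸ Subgroup.mem_top b : b ∈ Subgroup.zpowers x)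
  rw [← zpow_add, ← zpow_add, add_comm]

theorem centre_mem_frattini {P : Subgroup S} (h2 : IsPGroup 2 P) (hP : ¬ IsMulCommutative P) {z : S}
    (hz : CentreTwo P z) : z ∈ (frattini P).map P.subtype := by
  haveI := Fact.mk Nat.prime_two
  haveI : Group.IsNilpotent P := h2.isNilpotent
  have hne : (commutator P).map P.subtype ≠ ⊥ := by
    intro e
    rw [Subgroup.map_eq_bot_iff_of_injective _ P.subtype_injective] at e
    refine hP ⟨⟨fun a b => ?_⟩⟩
    have := Subgroup.commutator_mem_commutator (H₁ := (⊤ : Subgroup P)) (H₂ := ⊤) (Subgroup.mem_top a) (Subgroup.mem_top b)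
    rw [← commutator_def, e, Subgroup.mem_bot] at this
    exact commutatorElement_eq_one_iff_mul_comm.1 this
  obtain ⟨w, hw, hw1, hwc⟩ := inf_center_ne_bot h2 (Subgroup.map_subtype_le _) hne (by
    rintro u hu _ ⟨m, hm, rfl⟩
    exact ⟨⟨u, hu⟩ * m * ⟨u, hu⟩⁻¹, (inferInstance : (commutator P).Normal).conj_mem m hm _, rfl⟩)
  rcases hz.2.2.2 w (Subgroup.map_subtype_le _ hw) hwc with e | e
  · exact absurd e hw1
  · exact e ▸ Subgroup.map_mono Core.commutator_le_frattini_of_isNilpotent hw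

theorem main (h2 : IsPGroup 2 S) (hr : SectionalPRankLE 2 4 S) (P Q : Subgroup S) [P.Normal] [Q.Normal]
    (hP : ¬ IsMulCommutative P) (hQ : ¬ IsMulCommutative Q) {zP zQ : S} (hzP : CentreTwo P zP)
    (hzQ : CentreTwo Q zQ) (hne : zP ≠ zQ) :
    (∀ x ∈ P, ∀ y ∈ Q, x * y = y * x) ∧ P ⊓ Q = ⊥ ∧ centralizer ((P ⊔ Q : Subgroup S) : Set S) ≤ P ⊔ Q := by
  haveI := Fact.mk Nat.prime_two
  have hdisj : P ⊓ Q = ⊥ := by
    by_contra hI
    have hn : ∀ u : S, ∀ m ∈ P ⊓ Q, u * m * u⁻¹ ∈ P ⊓ Q := fun u m hm =>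
      (inferInstance : (P ⊓ Q).Normal).conj_mem m hm u
    obtain ⟨w, hw, hw1, hwc⟩ := inf_center_ne_bot (h2.to_subgroup P) inf_le_left hI (fun u _ => hn u)
    obtain ⟨v, hv, hv1, hvc⟩ := inf_center_ne_bot (h2.to_subgroup Q) inf_le_right hI (fun u _ => hn u)
    have ew : w = zP := (hzP.2.2.2 w hw.1 hwc).resolve_left hw1
    have ev : v = zQ := (hzQ.2.2.2 v hv.2 hvc).resolve_left hv1
    -- `zQ` lies in `P` and is central there
    have hvP : ∀ x ∈ P, v * x = x * v := by
      intro x hx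
      have h1 : x * v * x⁻¹ ∈ Q := (inferInstance : Q.Normal).conj_mem v hv.2 x
      have h3 : ∀ y ∈ Q, x * v * x⁻¹ * y = y * (x * v * x⁻¹) := by
        intro y hy
        have h4 := hvc (x⁻¹ * y * x) (by simpa using (inferInstance : Q.Normal).conj_mem y hy x⁻¹)
        calc x * v * x⁻¹ * y = x * (v * (x⁻¹ * y * x)) * x⁻¹ := by group
          _ = x * ((x⁻¹ * y * x) * v) * x⁻¹ := by rw [h4]
          _ = y * (x * v * x⁻¹) := by group
      rcases hzQ.2.2.2 _ h1 h3 with e | e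
      · exact absurd (by simpa using e) hv1
      · rw [← ev] at e
        exact (mul_inv_eq_iff_eq_mul.1 e).symm
    exact hne ((hzP.2.2.2 v hv.1 hvP).resolve_left hv1 ▸ ev)
  have hcomm : ∀ x ∈ P, ∀ y ∈ Q, x * y = y * x := fun x hx y hy =>
    Subgroup.commute_of_normal_of_disjoint P Q inferInstance inferInstance (disjoint_iff.2 hdisj) x y hx hy
  refine ⟨hcomm, hdisj, ?_⟩
  by_contra hC
  obtain ⟨r0, hr0, hr0'⟩ := SetLike.not_le_iff_exists.1 hC
  obtain ⟨n, hr1, hr2⟩ := exists_sq_mem h2 hr0'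
  have hrC := Subgroup.pow_mem _ hr0 n
  set r := r0 ^ n
  set FP := (frattini P).map P.subtype
  set FQ := (frattini Q).map Q.subtype
  haveI : FP.Normal := Core.normal_map_subtype_of_characteristic _
  haveI : FQ.Normal := Core.normal_map_subtype_of_characteristic _
  set N := FP ⊔ FQ
  have hNle : N ≤ P ⊔ Q := sup_le_sup (map_subtype_le _) (map_subtype_le _)
  set π := QuotientGroup.mk' N
  -- `r` squares into `N`
  have hrr : r * r ∈ N := by
    obtain ⟨a, ha, b, hb, hab⟩ := Subgroup.mem_sup_of_normal_left.1 hr2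
    have hrx : ∀ x ∈ P ⊔ Q, r * r * x = x * (r * r) := fun x hx => by
      have h1 := Subgroup.mem_centralizer_iff.1 hrC x hx
      rw [mul_assoc, ← h1, ← mul_assoc, ← h1, mul_assoc]
    have haP : ∀ x ∈ P, a * x = x * a := by
      intro x hx
      have h1 := hrx x (mem_sup_left hx)
      rw [← hab, mul_assoc, ← hcomm x hx b hb, ← mul_assoc, ← mul_assoc] at h1
      exact mul_right_cancel h1
    have hbQ : ∀ y ∈ Q, b * y = y * b := by
      intro y hy
      have h1 := hrx y (mem_sup_right hy)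
      rw [← hab, ← mul_assoc y, ← hcomm a ha y hy, mul_assoc, mul_assoc] at h1
      exact mul_left_cancel h1
    rw [← hab]
    refine mul_mem (mem_sup_left ?_) (mem_sup_right ?_)
    · rcases hzP.2.2.2 a ha haP with e | e <;> rw [e]
      · exact one_mem _
      · exact centre_mem_frattini (h2.to_subgroup P) hP hzP
    · rcases hzQ.2.2.2 b hb hbQ with e | e <;> rw [e]
      · exact one_mem _
      · exact centre_mem_frattini (h2.to_subgroup Q) hQ hzQ
  have hcommP : ∀ (U : Subgroup S) [U.Normal], (frattini U).map U.subtype ≤ N →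
      (∀ x ∈ U, π x * π x = 1) ∧ ∀ x ∈ U, ∀ y ∈ U, π x * π y = π y * π x := by
    intro U _ hUN
    haveI : Group.IsNilpotent U := (h2.to_subgroup U).isNilpotent
    have hsq : ∀ x ∈ U, π x * π x = 1 := by
      intro x hx
      rw [← map_mul]
      refine (QuotientGroup.eq_one_iff _).2 (hUN ⟨⟨x, hx⟩ * ⟨x, hx⟩, ?_, rfl⟩)
      exact sq_mem_frattini (h2.to_subgroup U) _
    refine ⟨hsq, fun x hx y hy => ?_⟩
    have h3 := hsq _ (U.mul_mem hx hy)
    rw [map_mul] at h3
    have hi : ∀ w ∈ U, (π w)⁻¹ = π w := fun w hw => inv_eq_of_mul_eq_one_right (hsq w hw)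
    calc π x * π y = (π x * π y)⁻¹ := (inv_eq_of_mul_eq_one_right h3).symm
      _ = π y * π x := by rw [mul_inv_rev, hi x hx, hi y hy]
  obtain ⟨sqP, cP⟩ := hcommP P le_sup_left
  obtain ⟨sqQ, cQ⟩ := hcommP Q le_sup_right
  set W := Subgroup.closure (π '' ((P : Set S) ∪ Q ∪ {r}))
  have hgen : ∀ a ∈ π '' ((P : Set S) ∪ Q ∪ {r}), ∀ b ∈ π '' ((P : Set S) ∪ Q ∪ {r}), a * b = b * a := by
    rintro _ ⟨x, hx, rfl⟩ _ ⟨y, hy, rfl⟩
    have hrc : ∀ w ∈ P ⊔ Q, π w * π r = π r * π w := fun w hw => by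
      rw [← map_mul, ← map_mul, Subgroup.mem_centralizer_iff.1 hrC w hw]
    rcases hx with (hx | hx) | hx <;> rcases hy with (hy | hy) | hy
    · exact cP x hx y hy
    · rw [← map_mul, ← map_mul, hcomm x hx y hy]
    · rw [show y = r from hy]; exact hrc x (mem_sup_left hx)
    · rw [← map_mul, ← map_mul, hcomm y hy x hx]
    · exact cQ x hx y hy
    · rw [show y = r from hy]; exact hrc x (mem_sup_right hx)
    · rw [show x = r from hx]; exact (hrc y (mem_sup_left hy)).symm
    · rw [show x = r from hx]; exact (hrc y (mem_sup_right hy)).symm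
    · rw [show x = r from hx, show y = r from hy]
  have hWc : IsMulCommutative W := Subgroup.isMulCommutative_closure hgen
  haveI := hWc
  have hW2 : ∀ a ∈ W, a ^ 2 = 1 := by
    intro a ha
    induction ha using Subgroup.closure_induction with
    | mem a ha =>
      obtain ⟨x, hx, rfl⟩ := ha
      rw [pow_two]
      rcases hx with (hx | hx) | hx
      · exact sqP x hx
      · exact sqQ x hx
      · rw [show x = r from hx, ← map_mul]; exact (QuotientGroup.eq_one_iff _).2 hrr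
    | one => exact one_pow _
    | mul a b ha hb iha ihb =>
      rw [(show Commute a b from setLike_mul_comm ha hb).mul_pow, iha, ihb, mul_one]
    | inv a _ iha => rw [inv_pow, iha, inv_one]
  have h16 := rank_of_hom hr (MonoidHom.id S) Function.injective_id π (QuotientGroup.mk'_surjective N) W hWc hW2
  -- lower bound
  have hlt : (P ⊔ Q).map π < W := by
    refine lt_of_le_of_ne ?_ ?_
    · rw [Subgroup.map_sup]
      exact sup_le (by rintro _ ⟨x, hx, rfl⟩; exact subset_closure ⟨x, Or.inl (Or.inl hx), rfl⟩)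
        (by rintro _ ⟨x, hx, rfl⟩; exact subset_closure ⟨x, Or.inl (Or.inr hx), rfl⟩)
    · intro e
      have h1 : π r ∈ (P ⊔ Q).map π := e ▸ subset_closure ⟨r, Or.inr rfl, rfl⟩
      obtain ⟨x, hx, hxr⟩ := h1
      have h3 : x⁻¹ * r ∈ N := QuotientGroup.eq.1 hxr
      exact hr1 (by simpa using mul_mem hx (hNle h3))
  have hbound : 16 ≤ Nat.card ((P ⊔ Q).map π) := by
    set φ := MonoidHom.noncommCoprod P.subtype Q.subtype (fun x y => hcomm x x.2 y y.2)
    have hφ : Function.Injective φ := by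
      refine (injective_iff_map_eq_one φ).2 fun ⟨x, y⟩ h => ?_
      have h1 : (x : S) * (y : S) = 1 := h
      have h3 : (x : S) ∈ P ⊓ Q := ⟨x.2, by rw [eq_inv_of_mul_eq_one_left h1]; exact Q.inv_mem y.2⟩
      rw [hdisj, Subgroup.mem_bot] at h3
      rw [h3, one_mul] at h1
      exact Prod.ext (Subtype.ext h3) (Subtype.ext h1)
    have hrange : φ.range = P ⊔ Q := by
      exact (MonoidHom.noncommCoprod_range _ _ _).trans (by rw [Subgroup.range_subtype, Subgroup.range_subtype])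
    have hPQ : Nat.card (P ⊔ Q : Subgroup S) = Nat.card P * Nat.card Q := by
      rw [← hrange, ← Nat.card_congr (MonoidHom.ofInjective hφ).toEquiv, Nat.card_prod]
    have hN' : N = ((frattini P).prod (frattini Q)).map φ := by
      apply le_antisymm
      · refine sup_le ?_ ?_
        · rintro _ ⟨x, hx, rfl⟩
          exact ⟨(x, 1), ⟨hx, one_mem _⟩, by show (x : S) * ((1 : Q) : S) = (x : S); simp⟩
        · rintro _ ⟨y, hy, rfl⟩
          exact ⟨(1, y), ⟨one_mem _, hy⟩, by show ((1 : P) : S) * (y : S) = (y : S); simp⟩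
      · rintro _ ⟨⟨x, y⟩, ⟨hx, hy⟩, rfl⟩
        exact mul_mem (mem_sup_left ⟨x, hx, rfl⟩) (mem_sup_right ⟨y, hy, rfl⟩)
    have hker : (π.subgroupMap (P ⊔ Q)).ker = N.subgroupOf (P ⊔ Q) := by
      ext x
      rw [MonoidHom.mem_ker, Subgroup.mem_subgroupOf, ← QuotientGroup.eq_one_iff (N := N)]
      exact Subtype.ext_iff
    have hc : (π.subgroupMap (P ⊔ Q)).ker.index = Nat.card ((P ⊔ Q).map π) := by
      rw [Subgroup.index_ker, MonoidHom.range_eq_top.2 (π.subgroupMap_surjective _), Subgroup.card_top]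
    rw [← hc, hker]
    have h3 := (N.subgroupOf (P ⊔ Q)).card_mul_index
    rw [Nat.card_congr (Subgroup.subgroupOfEquivOfLe hNle).toEquiv, hPQ, hN',
      Subgroup.card_map_of_injective hφ, Nat.card_congr (Subgroup.prodEquiv _ _).toEquiv, Nat.card_prod,
      ← (frattini P).card_mul_index, ← (frattini Q).card_mul_index, hN'.symm] at h3
    have h4 : (N.subgroupOf (P ⊔ Q)).index = (frattini P).index * (frattini Q).index := by
      apply Nat.eq_of_mul_eq_mul_left (Nat.mul_pos (Nat.card_pos (α := frattini P)) (Nat.card_pos (α := frattini Q)))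
      rw [h3]; ring
    rw [h4]
    exact Nat.mul_le_mul (four_le_frattini_index (h2.to_subgroup P) hP) (four_le_frattini_index (h2.to_subgroup Q) hQ)
  have h5 : Nat.card ((P ⊔ Q).map π) < Nat.card W := by
    by_contra hh
    exact hlt.ne (Subgroup.eq_of_le_of_card_ge hlt.le (not_lt.1 hh))
  norm_num at h16
  omega

theorem commutator_c {P S0' : Subgroup S} {u z x : S} (hu2 : u * u = 1)
    (hcent : ∀ d, d ∈ S0' ↔ d * u = u * d) (huS : ∀ q ∈ P, u * q * u⁻¹ ∈ P)
    (hz : CentreTwo P z) (hx : x ∈ P) (hxn : x ∉ S0')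
    (hconj : ∀ d ∈ S0', ∀ q ∈ P, q * d * q⁻¹ ∈ S0') (hprod : ∀ a ∈ P, ∀ b ∈ P, a ∉ S0' → b ∉ S0' → a * b ∈ S0') :
    x * u * x⁻¹ = z * u := by
  set v := x * u * x⁻¹ with hv
  have huu : u ∈ S0' := (hcent u).2 rfl
  have hvS : v ∈ S0' := hconj u huu x hx
  have hvu : v * u = u * v := (hcent v).1 hvS
  have hui : u⁻¹ = u := inv_eq_of_mul_eq_one_right hu2
  have hv2 : v * v = 1 := by
    rw [hv, conj_mul, hu2, mul_one, mul_inv_cancel]
  set c := v * u
  have hcP : c ∈ P := by
    have h1 := mul_mem hx (huS x⁻¹ (inv_mem hx))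
    rw [show x * (u * x⁻¹ * u⁻¹) = c by simp only [c, hv, hui, mul_assoc]] at h1
    exact h1
  have hc2 : c⁻¹ = c := by
    rw [mul_inv_rev, hui, inv_eq_of_mul_eq_one_right hv2, hvu]
  have hd : ∀ d ∈ P, d ∈ S0' → c * d = d * c := by
    intro d hdP hd
    have h1 : d * u = u * d := (hcent d).1 hd
    have h2 : v * d = d * v := by
      have h3 := (hcent _).1 (hconj d hd x⁻¹ (inv_mem hx))
      calc v * d = x * (u * (x⁻¹ * d * x⁻¹⁻¹)) * x⁻¹ := by rw [hv]; group
        _ = x * ((x⁻¹ * d * x⁻¹⁻¹) * u) * x⁻¹ := by rw [h3]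
        _ = d * v := by rw [hv]; group
    show v * u * d = d * (v * u)
    rw [mul_assoc, ← h1, ← mul_assoc, h2, mul_assoc]
  have hcx : c * x = x * c := by
    have hx2 : x * x * u = u * (x * x) := (hcent _).1 (hprod x hx x hx hxn hxn)
    have e1 : x * v * x⁻¹ = u := by
      rw [hv, show x * (x * u * x⁻¹) * x⁻¹ = x * x * u * (x * x)⁻¹ by group, hx2, mul_inv_cancel_right]
    have e : x * c * x⁻¹ = c := by
      calc x * c * x⁻¹ = (x * v * x⁻¹) * (x * u * x⁻¹) := by simp only [c]; group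
        _ = u * v := by rw [e1, ← hv]
        _ = c := hvu.symm
    exact (mul_inv_eq_iff_eq_mul.1 e).symm
  have hcentral : ∀ q ∈ P, c * q = q * c := by
    intro q hq
    by_cases hqS : q ∈ S0'
    · exact hd q hq hqS
    · have h1 := hd (x * q) (mul_mem hx hq) (hprod x hx q hq hxn hqS)
      have h2 : x * (c * q) = x * (q * c) := by rw [← mul_assoc, ← hcx, mul_assoc c, h1, mul_assoc]
      exact mul_left_cancel h2
  rcases hz.2.2.2 c hcP hcentral with e | e
  · exfalso
    apply hxn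
    rw [hcent]
    have h1 : v = u := by
      rw [← hui]; exact eq_inv_of_mul_eq_one_left e
    exact mul_inv_eq_iff_eq_mul.1 h1
  · rw [← e]
    show v = v * u * u
    rw [mul_assoc, hu2, mul_one]

theorem four_fourhundred_one (h2 : IsPGroup 2 S) (hr : SectionalPRankLE 2 4 S) (P : Subgroup S)
    (hP : ¬ IsMulCommutative P) {z : S} (hz : CentreTwo P z) (S₀ : Subgroup S)
    (hS₀ : ∀ x, x ∈ S₀ ↔ x * z = z * x) (hPn : ∀ s ∈ S₀, ∀ x ∈ P, s * x * s⁻¹ ∈ P) :
    S₀ = ⊤ ∨ (SectionalPRankLE 2 2 P ∧ S₀.index = 2) := by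
  haveI := Fact.mk Nat.prime_two
  by_cases htop : S₀ = ⊤
  · exact Or.inl htop
  right
  have hPS : P ≤ S₀ := fun x hx => (hS₀ x).2 (hz.2.2.1 x hx).symm
  obtain ⟨g, hgN, hgS, hg2⟩ : ∃ g ∈ normalizer (S₀ : Set S), g ∉ S₀ ∧ g * g ∈ S₀ := by
    haveI := h2.isNilpotent
    obtain ⟨a, ha, ha'⟩ := SetLike.exists_of_lt
      (Group.normalizerCondition_of_isNilpotent S₀ (lt_top_iff_ne_top.2 htop))
    obtain ⟨n, h1, h3⟩ := exists_sq_mem h2 ha'
    exact ⟨a ^ n, pow_mem ha n, h1, h3⟩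
  set Q := P.map (MulAut.conj g).toMonoidHom with hQdef
  set z' := g * z * g⁻¹ with hz'def
  have hzQ : CentreTwo Q z' := hz.map g
  have hQS : Q ≤ S₀ := by
    rintro _ ⟨x, hx, rfl⟩
    exact (mem_normalizer_iff.1 hgN x).1 (hPS hx)
  have hQn : ∀ s ∈ S₀, ∀ x ∈ Q, s * x * s⁻¹ ∈ Q := by
    rintro s hs _ ⟨x, hx, rfl⟩
    have h1 : g⁻¹ * s * g ∈ S₀ := by
      rw [mem_normalizer_iff.1 hgN]; simpa [mul_assoc] using hs
    refine ⟨_, hPn _ h1 x hx, ?_⟩
    show g * (g⁻¹ * s * g * x * (g⁻¹ * s * g)⁻¹) * g⁻¹ = s * (g * x * g⁻¹) * s⁻¹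
    group
  have hzne : z ≠ z' := fun e => hgS ((hS₀ g).2 (by
    have := congrArg (· * g) e
    simpa [hz'def] using this.symm))
  have hQnc : ¬ IsMulCommutative Q := fun hc => hP ⟨⟨fun a b => by
    haveI := hc
    have h1 := mul_comm' (⟨_, mem_map_of_mem (MulAut.conj g).toMonoidHom a.2⟩ : Q)
      ⟨_, mem_map_of_mem (MulAut.conj g).toMonoidHom b.2⟩
    have h3 := congrArg Subtype.val h1
    simp only [Subgroup.coe_mul, MulEquiv.coe_toMonoidHom, ← map_mul] at h3
    exact Subtype.ext ((MulAut.conj g).injective h3)⟩⟩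
  haveI : (P.subgroupOf S₀).Normal := ⟨fun x hx s => hPn s s.2 x hx⟩
  haveI : (Q.subgroupOf S₀).Normal := ⟨fun x hx s => hQn s s.2 x hx⟩
  have hsubnc : ∀ {U : Subgroup S}, U ≤ S₀ → ¬ IsMulCommutative U → ¬ IsMulCommutative (U.subgroupOf S₀) := by
    intro U hU hnc hc
    haveI := hc
    exact hnc ⟨⟨fun a b => Subtype.ext (congrArg (fun w : U.subgroupOf S₀ => ((w : S₀) : S))
      (mul_comm' (⟨⟨a, hU a.2⟩, a.2⟩ : U.subgroupOf S₀) ⟨⟨b, hU b.2⟩, b.2⟩))⟩⟩
  have hsubz : ∀ {U : Subgroup S} {w : S} (hU : U ≤ S₀) (hw : CentreTwo U w),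
      CentreTwo (U.subgroupOf S₀) ⟨w, hU hw.1⟩ := by
    intro U w hU hw
    refine ⟨hw.1, fun e => hw.2.1 (congrArg Subtype.val e), fun x hx => Subtype.ext (hw.2.2.1 x hx), fun a ha hc => ?_⟩
    rcases hw.2.2.2 a ha (fun x hx => congrArg Subtype.val (hc ⟨x, hU hx⟩ hx)) with e | e
    · exact Or.inl (Subtype.ext e)
    · exact Or.inr (Subtype.ext e)
  obtain ⟨hcomm', hdisj', hcen'⟩ := main (h2.to_subgroup S₀) (sectional_subgroup hr S₀)
    (P.subgroupOf S₀) (Q.subgroupOf S₀) (hsubnc hPS hP) (hsubnc hQS hQnc) (hsubz hPS hz) (hsubz hQS hzQ)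
    (fun e => hzne (congrArg Subtype.val e))
  have hcomm : ∀ x ∈ P, ∀ y ∈ Q, x * y = y * x := fun x hx y hy =>
    congrArg Subtype.val (hcomm' ⟨x, hPS hx⟩ hx ⟨y, hQS hy⟩ hy)
  have hdisj : ∀ x ∈ P, x ∈ Q → x = 1 := fun x hx hxQ => by
    have h1 : (⟨x, hPS hx⟩ : S₀) ∈ P.subgroupOf S₀ ⊓ Q.subgroupOf S₀ := ⟨hx, hxQ⟩
    rw [hdisj', mem_bot] at h1
    exact congrArg Subtype.val h1
  -- `S₀ ∪ g S₀`
  set S₁ := S₀ ⊔ zpowers g with hS₁
  have hS1 : ∀ x ∈ S₁, x ∈ S₀ ∨ g⁻¹ * x ∈ S₀ := by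
    intro x hx
    have hle : zpowers g ≤ normalizer (S₀ : Set S) := zpowers_le.2 hgN
    rw [hS₁, sup_comm, ← SetLike.mem_coe, Subgroup.coe_mul_of_left_le_normalizer_right _ _ hle] at hx
    obtain ⟨_, ⟨m, rfl⟩, s, hs, rfl⟩ := hx
    have hgg : ∀ i : ℤ, g ^ (2 * i) ∈ S₀ := fun i => by
      rw [zpow_mul, zpow_two]; exact zpow_mem hg2 i
    rcases Int.even_or_odd' m with ⟨i, rfl | rfl⟩
    · exact Or.inl (mul_mem (hgg i) hs)
    · right
      show g⁻¹ * (g ^ (2 * i + 1) * s) ∈ S₀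
      rw [add_comm, zpow_add, zpow_one]
      simpa [mul_assoc] using mul_mem (hgg i) hs
  have hgS1 : g ∈ S₁ := mem_sup_right (mem_zpowers g)
  have hprod0 : ∀ x ∈ S₁, ∀ y ∈ S₁, x ∉ S₀ → y ∉ S₀ → x * y ∈ S₀ := by
    intro x hx y hy hx' hy'
    obtain a := (hS1 x hx).resolve_left hx'
    obtain b := (hS1 y hy).resolve_left hy'
    have c : g * (g⁻¹ * x) * g⁻¹ ∈ S₀ := (mem_normalizer_iff.1 hgN _).1 a
    have := mul_mem c (mul_mem hg2 b)
    simpa [mul_assoc] using this
  have hS1top : S₁ = ⊤ := by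
    by_contra hne
    haveI := h2.isNilpotent
    obtain ⟨h, hhN, hh⟩ := SetLike.exists_of_lt
      (Group.normalizerCondition_of_isNilpotent S₁ (lt_top_iff_ne_top.2 hne))
    set u := h * z * h⁻¹ with hu
    set S0' := S₀.map (MulAut.conj h).toMonoidHom
    have hmem' : ∀ d, d ∈ S0' ↔ h⁻¹ * d * h ∈ S₀ := by
      intro d
      constructor
      · rintro ⟨s, hs, rfl⟩
        simpa [mul_assoc] using hs
      · exact fun hd => ⟨_, hd, by show h * (h⁻¹ * d * h) * h⁻¹ = d; group⟩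
    have hcent : ∀ d, d ∈ S0' ↔ d * u = u * d := by
      intro d
      rw [hmem', hS₀]
      constructor
      · intro e
        calc d * u = h * (h⁻¹ * d * h * z) * h⁻¹ := by rw [hu]; group
          _ = h * (z * (h⁻¹ * d * h)) * h⁻¹ := by rw [e]
          _ = u * d := by rw [hu]; group
      · intro e
        calc h⁻¹ * d * h * z = h⁻¹ * (d * u) * h := by rw [hu]; group
          _ = h⁻¹ * (u * d) * h := by rw [e]
          _ = z * (h⁻¹ * d * h) := by rw [hu]; group
    have hin : ∀ d ∈ S₁, h⁻¹ * d * h ∈ S₁ := fun d hd => by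
      rw [mem_normalizer_iff.1 hhN]; simpa [mul_assoc] using hd
    have hprod : ∀ a ∈ S₁, ∀ b ∈ S₁, a ∉ S0' → b ∉ S0' → a * b ∈ S0' := by
      intro a ha b hb ha' hb'
      rw [hmem'] at ha' hb' ⊢
      rw [show h⁻¹ * (a * b) * h = (h⁻¹ * a * h) * (h⁻¹ * b * h) by group]
      exact hprod0 _ (hin a ha) _ (hin b hb) ha' hb'
    have hconj0 : ∀ d ∈ S₀, ∀ a ∈ S₁, a * d * a⁻¹ ∈ S₀ := by
      intro d hd a ha
      exact (mem_normalizer_iff.1 ((sup_le (le_normalizer) (zpowers_le.2 hgN) : S₁ ≤ _) ha) d).1 hd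
    have hconj : ∀ d ∈ S0', ∀ a ∈ S₁, a * d * a⁻¹ ∈ S0' := by
      intro d hd a ha
      rw [hmem'] at hd ⊢
      rw [show h⁻¹ * (a * d * a⁻¹) * h = (h⁻¹ * a * h) * (h⁻¹ * d * h) * (h⁻¹ * a * h)⁻¹ by group]
      exact hconj0 _ hd _ (hin a ha)
    have hPS1 : P ≤ S₁ := hPS.trans le_sup_left
    have hzS' : z ∈ S0' := by
      by_contra hzn
      have hsq : ∀ q ∈ P, q ∈ S0' → q = 1 := by
        intro q hq hqS
        by_contra hq1
        obtain ⟨w, hw, hw1, hwc⟩ := inf_center_ne_bot (h2.to_subgroup P) (inf_le_left : P ⊓ S0' ≤ P)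
          (fun e => hq1 (mem_bot.1 (e ▸ (⟨hq, hqS⟩ : q ∈ P ⊓ S0'))))
          (fun v hv m hm => Subgroup.mem_inf.2 ⟨P.mul_mem (P.mul_mem hv hm.1) (P.inv_mem hv), hconj m hm.2 v (hPS1 hv)⟩)
        rcases hz.2.2.2 w hw.1 hwc with e | e
        · exact hw1 e
        · exact hzn (e ▸ hw.2)
      apply hP
      refine ⟨⟨fun a b => Subtype.ext ?_⟩⟩
      have hinvol : ∀ q ∈ P, q * q = 1 := fun q hq => by
        by_cases hqS : q ∈ S0'
        · rw [hsq q hq hqS, mul_one]
        · exact hsq _ (mul_mem hq hq) (hprod q (hPS1 hq) q (hPS1 hq) hqS hqS)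
      have hi : ∀ q ∈ P, q⁻¹ = q := fun q hq => inv_eq_of_mul_eq_one_right (hinvol q hq)
      show (a : S) * b = b * a
      calc (a : S) * b = ((a : S) * b)⁻¹ := (hi _ (mul_mem a.2 b.2)).symm
        _ = b * a := by rw [mul_inv_rev, hi _ a.2, hi _ b.2]
    have huS : u ∈ S₀ := (hS₀ u).2 ((hcent z).1 hzS').symm
    have hu2 : u * u = 1 := by rw [hu, conj_mul, hz.sq, mul_one, mul_inv_cancel]
    have hgzg : g * z' * g⁻¹ = z := by
      rw [hz'def, show g * (g * z * g⁻¹) * g⁻¹ = (g * g) * z * (g * g)⁻¹ by group, (hS₀ _).1 hg2,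
        mul_inv_cancel_right]
    by_cases hPle : P ≤ S0'
    · -- then `u` centralizes `P` and `Q`
      have hQle : Q ≤ S0' := by
        rintro _ ⟨x, hx, rfl⟩
        exact hconj x (hPle hx) g hgS1
      have hmemc : (⟨u, huS⟩ : S₀) ∈ centralizer ((P.subgroupOf S₀ ⊔ Q.subgroupOf S₀ : Subgroup S₀) : Set S₀) := by
        have hle : P.subgroupOf S₀ ⊔ Q.subgroupOf S₀ ≤ centralizer ({⟨u, huS⟩} : Set S₀) := by
          refine sup_le ?_ ?_
          · intro x hx
            exact mem_centralizer_singleton_iff.2 (Subtype.ext ((hcent x).1 (hPle hx)))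
          · intro x hx
            exact mem_centralizer_singleton_iff.2 (Subtype.ext ((hcent x).1 (hQle hx)))
        exact mem_centralizer_iff.2 fun x hx => mem_centralizer_singleton_iff.1 (hle hx)
      obtain ⟨a, ha, b, hb, hab⟩ := mem_sup_of_normal_left.1 (hcen' hmemc)
      have hab' : (a : S) * (b : S) = u := congrArg Subtype.val hab
      have haz : (a : S) = 1 ∨ (a : S) = z := hz.2.2.2 a ha fun x hx => by
        have h1 : x * u = u * x := (hcent x).1 (hPle hx)
        rw [← hab', mul_assoc (a : S), ← hcomm x hx b hb, ← mul_assoc, ← mul_assoc] at h1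
        exact (mul_right_cancel h1).symm
      have hbz : (b : S) = 1 ∨ (b : S) = z' := hzQ.2.2.2 b hb fun x hx => by
        have h1 : x * u = u * x := (hcent x).1 (hQle hx)
        rw [← hab', ← mul_assoc, ← hcomm a ha x hx, mul_assoc, mul_assoc] at h1
        exact (mul_left_cancel h1).symm
      have hu1 : u ≠ 1 := fun e => hz.2.1 (by simpa [hu] using e)
      have hh0 : ∀ k ∈ S₁, u = k * z * k⁻¹ → False := by
        intro k hk e
        apply hh
        have : k⁻¹ * h ∈ S₀ := by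
          rw [hS₀]
          calc k⁻¹ * h * z = k⁻¹ * u * h := by rw [hu]; group
            _ = z * (k⁻¹ * h) := by rw [e]; group
        simpa using mul_mem hk (le_sup_left (b := zpowers g) this)
      rcases haz with e | e <;> rcases hbz with e' | e' <;> rw [e, e'] at hab'
      · exact hu1 (by simpa using hab'.symm)
      · exact hh0 g hgS1 (by rw [← hab', one_mul])
      · exact hh0 1 (one_mem _) (by rw [← hab']; simp)
      · -- `u = z z'` is centralized by all of `S₁`
        have hwc : S₁ ≤ S0' := by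
          refine sup_le ?_ (zpowers_le.2 ?_)
          · intro s hs
            rw [hcent, ← hab']
            have h1 := (hS₀ s).1 hs
            have h3 : s * z' = z' * s := by
              have h4 : g⁻¹ * s * g ∈ S₀ := by rw [mem_normalizer_iff.1 hgN]; simpa [mul_assoc] using hs
              calc s * z' = g * (g⁻¹ * s * g * z) * g⁻¹ := by rw [hz'def]; group
                _ = g * (z * (g⁻¹ * s * g)) * g⁻¹ := by rw [(hS₀ _).1 h4]
                _ = z' * s := by rw [hz'def]; group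
            rw [← mul_assoc, h1, mul_assoc, h3, ← mul_assoc]
          · rw [hcent, ← hab', ← mul_inv_eq_iff_eq_mul,
              show g * (z * z') * g⁻¹ = (g * z * g⁻¹) * (g * z' * g⁻¹) by group, hgzg, ← hz'def]
            exact ((hS₀ z').1 (hQS hzQ.1))
        have hlt : S₀ < S₁ := lt_of_le_of_ne le_sup_left fun e' => hgS (e' ▸ hgS1)
        have hc1 : Nat.card S0' = Nat.card S₀ := card_map_of_injective (MulAut.conj h).injective
        exact hlt.ne (eq_of_le_of_card_ge hlt.le (hc1 ▸ card_le_of_le hwc))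
    · obtain ⟨x, hx, hxn⟩ := SetLike.not_le_iff_exists.1 hPle
      set y := g * x * g⁻¹
      have hy : y ∈ Q := ⟨x, hx, rfl⟩
      have hyn : y ∉ S0' := fun hc => hxn (by
        simpa [y, mul_assoc] using hconj y hc g⁻¹ (inv_mem hgS1))
      have hQS1 : Q ≤ S₁ := hQS.trans le_sup_left
      have e1 := commutator_c hu2 hcent (fun q hq => hPn u huS q hq) hz hx hxn
        (fun d hd q hq => hconj d hd q (hPS1 hq)) (fun a ha b hb => hprod a (hPS1 ha) b (hPS1 hb))
      have e2 := commutator_c hu2 hcent (fun q hq => hQn u huS q hq) hzQ hy hyn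
        (fun d hd q hq => hconj d hd q (hQS1 hq)) (fun a ha b hb => hprod a (hQS1 ha) b (hQS1 hb))
      have e3 := (hcent _).1 (hprod x (hPS1 hx) y (hQS1 hy) hxn hyn)
      have e4 : x * y * u * (x * y)⁻¹ = u := mul_inv_eq_iff_eq_mul.2 e3
      have e5 : x * y * u * (x * y)⁻¹ = (x * z' * x⁻¹) * (x * u * x⁻¹) := by
        rw [show x * y * u * (x * y)⁻¹ = x * (y * u * y⁻¹) * x⁻¹ by group, e2]; group
      have e6 : x * z' * x⁻¹ = z' := by rw [hcomm x hx z' hzQ.1, mul_inv_cancel_right]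
      rw [e5, e1, e6, ← mul_assoc] at e4
      have e7 : z' * z = 1 := mul_right_cancel (e4.trans (one_mul u).symm)
      exact hzne ((eq_inv_of_mul_eq_one_left e7).trans (inv_eq_of_mul_eq_one_right hz.sq)).symm
  refine ⟨?_, ?_⟩
  · intro H N _ A hA hA2
    -- the doubled section
    set gi : P →* S := (MulAut.conj g).toMonoidHom.comp P.subtype
    set φ := MonoidHom.noncommCoprod (P.subtype.comp H.subtype) (gi.comp H.subtype)
      (fun a b => hcomm _ a.1.2 _ ⟨_, b.1.2, rfl⟩) with hφdef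
    have hφ : Function.Injective φ := by
      refine (injective_iff_map_eq_one φ).2 fun ⟨a, b⟩ h => ?_
      have h1 : ((a : P) : S) * (g * ((b : P) : S) * g⁻¹) = 1 := h
      have h3 : ((a : P) : S) = 1 := hdisj _ a.1.2
        (by rw [eq_inv_of_mul_eq_one_left h1]; exact inv_mem ⟨_, b.1.2, rfl⟩)
      rw [h3, one_mul] at h1
      exact Prod.ext (Subtype.ext (Subtype.ext h3)) (Subtype.ext (Subtype.ext (by simpa using h1)))
    have hb := rank_of_hom hr φ hφ (MonoidHom.prodMap (QuotientGroup.mk' N) (QuotientGroup.mk' N))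
      (Function.Surjective.prodMap (QuotientGroup.mk'_surjective N) (QuotientGroup.mk'_surjective N))
      (A.prod A) ⟨⟨fun a b => Subtype.ext (Prod.ext (setLike_mul_comm a.2.1 b.2.1) (setLike_mul_comm a.2.2 b.2.2))⟩⟩
      (fun a ha => Prod.ext (hA2 _ ha.1) (hA2 _ ha.2))
    rw [Nat.card_congr (Subgroup.prodEquiv A A).toEquiv, Nat.card_prod] at hb
    by_contra hlt
    norm_num at hb hlt
    nlinarith
  · rw [Subgroup.index_eq_two_iff]
    refine ⟨g, fun b => ?_⟩
    by_cases hb : b ∈ S₀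
    · refine Or.inr ⟨hb, fun hc => hgS ?_⟩
      simpa using mul_mem (inv_mem hb) hc
    · refine Or.inl ⟨hprod0 b (hS1top ▸ mem_top b) g hgS1 hb hgS, hb⟩

end Cfsg.Agent.FGS4.SectionalFour
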