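import Cfsg.Agent.Core.Fitting
import Cfsg.Agent.Core.MinimalNormal
import Cfsg.Agent.Core.Cores
import Mathlib.LinearAlgebra.Dimension.Finrank
import Mathlib.Data.ZMod.Basic

/-! # A transvection is no square in a solvable linear group over `GF(2)` without normal 2-subgroup -/

set_option linter.style.haveILetI false

namespace Cfsg.Agent.FGS4.TransvectionSquare

open Subgroup

variable {V : Type*} [AddCommGroup V] [Module (ZMod 2) V]

theorem add_self_eq (v : V) : v + v = 0 := by
  rw [← two_smul (ZMod 2) v, show (2 : ZMod 2) = 0 from rfl, zero_smul]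

theorem add_self_left (v w : V) : v + (v + w) = w := by
  rw [← add_assoc, add_self_eq, zero_add]

/-- `t` moves vectors only by `c`. -/
def IsTv (t : V ≃ₗ[ZMod 2] V) (c : V) : Prop :=
  c ≠ 0 ∧ t c = c ∧ ∀ v, t v = v ∨ t v = v + c

theorem IsTv.conj {t : V ≃ₗ[ZMod 2] V} {c : V} (h : IsTv t c) (n : V ≃ₗ[ZMod 2] V) :
    IsTv (n * t * n⁻¹) (n c) := by
  refine ⟨fun e => h.1 (n.injective (by simpa using e)), ?_, fun v => ?_⟩
  · show n (t (n.symm (n c))) = n c
    rw [LinearEquiv.symm_apply_apply, h.2.1]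
  · show n (t (n.symm v)) = v ∨ n (t (n.symm v)) = v + n c
    rcases h.2.2 (n.symm v) with e | e
    · left; rw [e, LinearEquiv.apply_symm_apply]
    · right; rw [e, map_add, LinearEquiv.apply_symm_apply]

theorem IsTv.sq {t : V ≃ₗ[ZMod 2] V} {c : V} (h : IsTv t c) : t * t = 1 := by
  ext v
  show t (t v) = v
  rcases h.2.2 v with e | e
  · rw [e, e]
  · rw [e, map_add, e, h.2.1, add_assoc, add_self_eq, add_zero]

/-- If a product of two transvections has odd order and is nontrivial, the centres are moved. -/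
theorem IsTv.moved {t t' : V ≃ₗ[ZMod 2] V} {c c' : V} (h : IsTv t c) (h' : IsTv t' c')
    (hodd : ¬ 2 ∣ orderOf (t * t')) (hne : t ≠ t') : t c' = c' + c ∧ t' c = c + c' := by
  by_contra hcon
  have hfix : t c' = c' ∨ t' c = c := by
    rcases h.2.2 c' with e | e
    · exact Or.inl e
    · rcases h'.2.2 c with e' | e'
      · exact Or.inr e'
      · exact absurd ⟨e, e'⟩ hcon
  have h4 : (t * t') ^ 4 = 1 := by
    rw [show (4 : ℕ) = 2 * 2 from rfl, pow_mul, pow_two, pow_two]
    ext v
    show t (t' (t (t' (t (t' (t (t' v))))))) = v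
    rcases h.2.2 c' with hc1 | hc1 <;> rcases h'.2.2 c with hc2 | hc2 <;>
      rcases h.2.2 v with hv | hv <;> rcases h'.2.2 v with hv' | hv'
    all_goals first
      | (exfalso; exact hcon ⟨hc1, hc2⟩)
      | (simp only [hv', hv, map_add, hc1, hc2, h.2.1, h'.2.1]
         all_goals try simp only [add_assoc, add_left_comm, add_comm, add_self_eq, add_zero, zero_add]
         all_goals try simp [add_self_eq, add_self_left])
  have h1 := orderOf_dvd_of_pow_eq_one h4
  rw [show (4 : ℕ) = 2 ^ 2 from rfl, Nat.dvd_prime_pow Nat.prime_two] at h1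
  obtain ⟨j, -, hj⟩ := h1
  rcases Nat.eq_zero_or_pos j with hj0 | hj0
  · rw [hj0, pow_zero, orderOf_eq_one_iff] at hj
    exact hne (mul_left_cancel ((h.sq).trans hj.symm))
  · exact hodd (hj ▸ dvd_pow_self 2 hj0.ne')

theorem four_le_card_range [Finite V] (S : Subgroup (V ≃ₗ[ZMod 2] V)) (hS : Group.IsSolvable ↥S)
    (hO2 : Cfsg.pCore 2 ↥S = ⊥) (P : V ≃ₗ[ZMod 2] V) (hPS : P ∈ S) (hP4 : orderOf P = 4) :
    4 ≤ Nat.card ↥(LinearMap.range (((P : V →ₗ[ZMod 2] V) - LinearMap.id) ^ 2)) := by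
  classical
  haveI : Finite (V ≃ₗ[ZMod 2] V) := DFunLike.finite _
  haveI := Fact.mk Nat.prime_two
  by_contra hlt
  set D := LinearMap.range (((P : V →ₗ[ZMod 2] V) - LinearMap.id) ^ 2) with hD
  have hval : ∀ v, (((P : V →ₗ[ZMod 2] V) - LinearMap.id) ^ 2 : V →ₗ[ZMod 2] V) v = (P * P) v + v := by
    intro v
    rw [pow_two]
    show (P : V →ₗ[ZMod 2] V) (P v - v) - (P v - v) = P (P v) + v
    simp only [map_sub, LinearEquiv.coe_coe]
    rw [← add_zero (P (P v) + v), ← add_self_eq (P v)]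
    have h1 : ∀ w : V, -w = w := fun w => neg_eq_of_add_eq_zero_right (add_self_eq w)
    simp only [sub_eq_add_neg, neg_add, h1]
    abel
  obtain ⟨t, ht⟩ : ∃ t, t = P * P := ⟨_, rfl⟩
  rw [← ht] at hval
  have ht1 : t ≠ 1 := by
    intro e
    have := orderOf_dvd_of_pow_eq_one (show P ^ 2 = 1 by rw [pow_two, ← ht]; exact e)
    rw [hP4] at this
    have := Nat.le_of_dvd two_pos this
    omega
  obtain ⟨v0, hv0⟩ : ∃ v, t v ≠ v := by
    by_contra hh
    push Not at hh
    exact ht1 (LinearEquiv.ext hh)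
  have hmemD : ∀ v, t v + v ∈ D := fun v => ⟨v, hval v⟩
  obtain ⟨c, hc0, hcD⟩ : ∃ c, c ≠ 0 ∧ c ∈ D := ⟨t v0 + v0, fun e => hv0 (by
    have := congrArg (· + v0) e
    simp only [zero_add, add_assoc, add_self_eq, add_zero] at this
    exact this), hmemD v0⟩
  have hall : ∀ w ∈ D, w = 0 ∨ w = c := by
    intro w hw
    by_contra hne
    push Not at hne
    have hc : c ∈ D := hcD
    have hwc : w + c ∈ D := D.add_mem hw hc
    apply hlt
    have hcard : ({⟨0, D.zero_mem⟩, ⟨w, hw⟩, ⟨c, hc⟩, ⟨w + c, hwc⟩} : Finset D).card = 4 := by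
      have e1 : w + c ≠ 0 := fun e => hne.2 (by
        have := congrArg (· + c) e
        simpa [add_assoc, add_self_eq] using this)
      have e2 : w + c ≠ w := fun e => hc0 (by simpa using e)
      have e3 : w + c ≠ c := fun e => hne.1 (by simpa using e)
      rw [Finset.card_insert_of_notMem (by simp [hne.1.symm, hc0.symm, e1.symm]),
        Finset.card_insert_of_notMem (by simp [hne.2, e2.symm]),
        Finset.card_insert_of_notMem (by simp [e3.symm]), Finset.card_singleton]
    haveI := Fintype.ofFinite D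
    rw [Nat.card_eq_fintype_card, ← hcard]
    exact Finset.card_le_univ _
  have htv : ∀ v, t v = v ∨ t v = v + c := fun v => by
    rcases hall _ (hmemD v) with e | e
    · left
      have := congrArg (· + v) e
      simpa [add_assoc, add_self_eq] using this
    · right
      have := congrArg (· + v) e
      simp only [add_assoc, add_self_eq, add_zero] at this
      rw [this, add_comm]
  have htc : t c = c := by
    by_contra hne
    have h0 : t c = 0 := by
      rcases htv c with e | e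
      · exact absurd e hne
      · rw [e, add_self_eq]
    exact hc0 (t.injective (h0.trans (map_zero t).symm))
  have htT : IsTv t c := ⟨hc0, htc, htv⟩
  have htS : t ∈ S := ht ▸ mul_mem hPS hPS
  -- an odd order normal subgroup not centralized by `t`
  set F := Cfsg.fittingSubgroup S
  have hFodd : ¬ 2 ∣ Nat.card F := by
    intro h2
    haveI : Group.IsNilpotent F := Core.isNilpotent_fittingSubgroup _
    obtain ⟨Q⟩ : Nonempty (Sylow 2 F) := inferInstance
    haveI : (Q : Subgroup F).Normal := inferInstance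
    haveI := Q.characteristic_of_normal inferInstance
    have hle := Core.le_pCore (Core.normal_map_subtype_of_characteristic (Q : Subgroup F))
      (Q.isPGroup'.map F.subtype)
    rw [hO2, le_bot_iff] at hle
    rw [Subgroup.map_eq_bot_iff_of_injective _ F.subtype_injective] at hle
    exact Q.ne_bot_of_dvd_card h2 hle
  obtain ⟨n, hnF, hn⟩ : ∃ n ∈ F, n * (⟨t, htS⟩ : S) ≠ ⟨t, htS⟩ * n := by
    by_contra hall'
    push Not at hall'
    have hmem : (⟨t, htS⟩ : S) ∈ F :=
      Core.centralizer_fittingSubgroup_le (mem_centralizer_iff.2 fun m hm => hall' m hm)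
    have h1 := Subgroup.orderOf_dvd_natCard F hmem
    rw [Subgroup.orderOf_mk, orderOf_eq_prime (show t ^ 2 = 1 by rw [pow_two]; exact htT.sq) ht1] at h1
    exact hFodd h1
  -- products of conjugates under `F` have odd order
  have hoddprod : ∀ a ∈ F, ∀ b ∈ F, ¬ 2 ∣ orderOf
      (((a : S) : V ≃ₗ[ZMod 2] V) * t * ((a : S) : V ≃ₗ[ZMod 2] V)⁻¹ *
        (((b : S) : V ≃ₗ[ZMod 2] V) * t * ((b : S) : V ≃ₗ[ZMod 2] V)⁻¹)) := by
    intro a ha b hb h2
    set T : S := ⟨t, htS⟩
    have hTT : T * T = 1 := Subtype.ext htT.sq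
    have hTi : T⁻¹ = T := inv_eq_of_mul_eq_one_right hTT
    have hmem : a * T * a⁻¹ * (b * T * b⁻¹) ∈ F := by
      have e : a * T * a⁻¹ * (b * T * b⁻¹) = a * (T * (a⁻¹ * b) * T⁻¹) * b⁻¹ := by
        rw [hTi]; group
      rw [e]
      exact mul_mem (mul_mem ha ((inferInstance : F.Normal).conj_mem _ (mul_mem (inv_mem ha) hb) T)) (inv_mem hb)
    have h1 := Subgroup.orderOf_dvd_natCard F hmem
    rw [← Subgroup.orderOf_coe] at h1
    exact hFodd (h2.trans h1)
  set m : V ≃ₗ[ZMod 2] V := ((n : S) : V ≃ₗ[ZMod 2] V)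
  set t' := m * t * m⁻¹ with ht'
  have htne : t ≠ t' := fun e => hn (Subtype.ext (by
    have := congrArg (fun z => z * m) e
    simpa [ht', mul_assoc] using this.symm))
  have htT' : IsTv t' (m c) := htT.conj m
  have hodd1 : ¬ 2 ∣ orderOf (t * t') := by
    have := hoddprod 1 (one_mem _) n hnF
    simpa using this
  obtain ⟨hm1, hm2⟩ := htT.moved htT' hodd1 htne
  -- there are only three conjugates
  have hthree : ∀ a ∈ F, ((a : S) : V ≃ₗ[ZMod 2] V) * t * ((a : S) : V ≃ₗ[ZMod 2] V)⁻¹ = t ∨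
      ((a : S) : V ≃ₗ[ZMod 2] V) * t * ((a : S) : V ≃ₗ[ZMod 2] V)⁻¹ = t' ∨
      ((a : S) : V ≃ₗ[ZMod 2] V) * t * ((a : S) : V ≃ₗ[ZMod 2] V)⁻¹ = t * t' * t := by
    intro a ha
    set u := ((a : S) : V ≃ₗ[ZMod 2] V) * t * ((a : S) : V ≃ₗ[ZMod 2] V)⁻¹ with hu
    by_contra hne
    push Not at hne
    obtain ⟨hne1, hne2, hne3⟩ := hne
    have huT : IsTv u ((a : S).1 c) := htT.conj _
    set cu := (a : S).1 c
    have h1 : t cu = cu + c := (htT.moved huT (by simpa [hu] using hoddprod 1 (one_mem _) a ha) hne1.symm).1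
    have h2 : t' cu = cu + m c := (htT'.moved huT (hoddprod n hnF a ha) hne2.symm).1
    set T : S := ⟨t, htS⟩
    have hT : T * T = 1 := Subtype.ext htT.sq
    have h3T : IsTv (t * t' * t) (t (m c)) := by
      have := htT'.conj t
      rwa [inv_eq_of_mul_eq_one_right htT.sq] at this
    have hb : T * n * T ∈ F := by
      have := (inferInstance : F.Normal).conj_mem n hnF T
      rwa [inv_eq_of_mul_eq_one_right hT] at this
    have hconj : (((T * n * T : S)) : V ≃ₗ[ZMod 2] V) * t * (((T * n * T : S)) : V ≃ₗ[ZMod 2] V)⁻¹ =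
        t * t' * t := by
      show t * m * t * t * (t * m * t)⁻¹ = t * (m * t * m⁻¹) * t
      rw [mul_inv_rev, mul_inv_rev, inv_eq_of_mul_eq_one_right htT.sq]
      calc t * m * t * t * (t * (m⁻¹ * t)) = t * m * (t * t) * t * m⁻¹ * t := by simp only [mul_assoc]
        _ = t * (m * t * m⁻¹) * t := by rw [htT.sq]; simp only [mul_assoc, one_mul]
    have hodd3 : ¬ 2 ∣ orderOf (t * t' * t * u) := by
      rw [← hconj]
      exact hoddprod _ hb a ha
    have h3 := (h3T.moved huT hodd3 (fun e => hne3 e.symm)).1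
    have h4 : (t * t' * t) cu = cu := by
      show t (t' (t cu)) = cu
      rw [h1, map_add, h2, hm2, map_add, map_add, map_add, h1, hm1, htT.2.1]
      have : cu + c + (m c + c) + (c + (m c + c)) = cu + (c + c) + (c + c) + (m c + m c) := by abel
      rw [this, add_self_eq, add_self_eq]; simp
    rw [h4] at h3
    exact h3T.1 (by simpa using h3)
  -- conjugating by `P`
  have hP : (⟨P, hPS⟩ : S) * n * (⟨P, hPS⟩ : S)⁻¹ ∈ F := (inferInstance : F.Normal).conj_mem n hnF _
  have hcomm : P * t = t * P := by rw [ht, mul_assoc]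
  have hPconj : ((⟨P, hPS⟩ * n * (⟨P, hPS⟩ : S)⁻¹ : S) : V ≃ₗ[ZMod 2] V) * t *
      ((⟨P, hPS⟩ * n * (⟨P, hPS⟩ : S)⁻¹ : S) : V ≃ₗ[ZMod 2] V)⁻¹ = P * t' * P⁻¹ := by
    show P * m * P⁻¹ * t * (P * m * P⁻¹)⁻¹ = P * (m * t * m⁻¹) * P⁻¹
    have e : P⁻¹ * t * P = t := by rw [mul_assoc, ← hcomm, inv_mul_cancel_left]
    calc P * m * P⁻¹ * t * (P * m * P⁻¹)⁻¹ = P * m * (P⁻¹ * t * P) * m⁻¹ * P⁻¹ := by group
      _ = P * (m * t * m⁻¹) * P⁻¹ := by rw [e]; group
  -- `P` permutes the two nontrivial products, so its square fixes them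
  have key : P * P * t' * (P * P)⁻¹ = t' := by
    rcases hPconj ▸ hthree _ hP with e | e | e
    · exfalso
      apply htne
      have e' : P * t' * P⁻¹ = P * t * P⁻¹ := by rw [e, hcomm, mul_inv_cancel_right]
      exact (mul_left_cancel (mul_right_cancel e')).symm
    · calc P * P * t' * (P * P)⁻¹ = P * (P * t' * P⁻¹) * P⁻¹ := by group
        _ = t' := by rw [e, e]
    · calc P * P * t' * (P * P)⁻¹ = P * (P * t' * P⁻¹) * P⁻¹ := by group
        _ = (P * t * P⁻¹) * (P * t' * P⁻¹) * (P * t * P⁻¹) := by rw [show P * (P * t' * P⁻¹) * P⁻¹ = P * (t * t' * t) * P⁻¹ by rw [e]]; group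
        _ = t * (t * t' * t) * t := by rw [e, hcomm, mul_inv_cancel_right]
        _ = t' := by
          calc t * (t * t' * t) * t = (t * t) * t' * (t * t) := by simp only [mul_assoc]
            _ = t' := by rw [htT.sq, one_mul, mul_one]
  have hfin : t (m c) = m c := by
    have h5 : t * t' = t' * t := mul_inv_eq_iff_eq_mul.1 (by rw [← ht] at key; exact key)
    rcases htv (m c) with e | e
    · exact e
    · exfalso
      have h6 : t' (t c) = t (t' c) := (congrArg (fun z : V ≃ₗ[ZMod 2] V => z c) h5).symm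
      rw [htc, hm2, map_add, htc, e] at h6
      exact hc0 (by
        have h7 : c + (m c + c) = m c := by
          rw [show c + (m c + c) = m c + (c + c) by abel, add_self_eq, add_zero]
        rw [h7] at h6
        simpa using h6)
  rw [hfin] at hm1
  exact hc0 (by simpa using hm1)

end Cfsg.Agent.FGS4.TransvectionSquare
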